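import Cfsg.Agent.H79.T1

/-!
Elements of order `2 ^ (k + 1)` acting on a plane and trivially on a complement.
-/

namespace Cfsg.Agent.H79

open Module Finset Subgroup H49
open scoped commutatorElement

universe u

theorem cent_of_quad {K V X : Type*} [Field K] [AddCommGroup V] [Module K V] [IsAlgClosed K]
    [FiniteDimensional K V] [Group X] [Finite X] (ρ : X →* End K V) (hρ : Function.Injective ρ)
    {B : Subgroup X} (hB : IsMulCommutative B) (hK : (Nat.card B : K) ≠ 0) {a : X}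
    (ha : a ∈ 𝒩(B)) {k : ℕ} (hk : 1 ≤ k) (han : a ^ 2 ^ (k + 1) = 1)
    (h : (ρ a - 1) * (ρ (a ^ 2 ^ k) + 1) = 0) : a ^ 2 ^ k ∈ 𝒞(B) := by
  haveI := Fintype.ofFinite B
  rw [Nat.card_eq_fintype_card] at hK
  by_contra hne
  obtain ⟨g, hg⟩ : ∃ g : B, (ρ.comp B.subtype) (cjAut B (pow_mem ha (2 ^ k)) g) ≠
      (ρ.comp B.subtype) g := by
    by_contra h
    push Not at h
    exact hne fun g hg => (mul_inv_eq_iff_eq_mul.1 (hρ (h ⟨g, hg⟩))).symm
  obtain ⟨U, hU, hU0, hUi, hne'⟩ := exists_irr_ne _ hK hg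
  have hS : cjAut B (pow_mem ha (2 ^ k)) ∉ isoStab hU.res := fun h =>
    hne' (hUi.res_cj _ h (cent_le_radS ⟨g.2, abelian_iff.1 hB g.2⟩))
  have hS' : ∀ i, (∃ j, a ^ (i * j) = a ^ 2 ^ k) → cjAut B (pow_mem ha i) ∉ isoStab hU.res :=
    fun i ⟨j, hj⟩ h => hS (by
      have := pow_mem h j
      rw [cjAut_pow] at this
      convert this using 2
      rw [← pow_mul, hj])
  obtain ⟨w, hw, hw0⟩ := Submodule.exists_mem_ne_zero_of_ne_bot hU0
  have hp := fun i hi => hUi.proj_kill (ρ.comp B.subtype) (f := U.subtype) (fun _ _ => rfl)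
    (hS' i hi) (rep_cjAut ρ (pow_mem ha i)) ⟨w, hw⟩
  have h1 := congrArg (proj hU.res (ρ.comp B.subtype)) (LinearMap.congr_fun h w)
  have h2 := hp 1 ⟨2 ^ k, by rw [one_mul]⟩
  have h3 := hp (2 ^ k) ⟨1, by rw [mul_one]⟩
  have h4 := hp (2 ^ k + 1) ⟨2 ^ k, by
    obtain ⟨j, rfl⟩ := Nat.exists_eq_add_of_le hk
    rw [add_mul, one_mul, pow_add a, show 2 ^ (1 + j) * 2 ^ (1 + j) = 2 ^ (1 + j + 1) * 2 ^ j by ring,
      pow_mul, han, one_pow, one_mul]⟩
  rw [pow_succ', map_mul] at h4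
  rw [pow_one] at h2
  simp only [Submodule.subtype_apply, End.mul_apply, LinearMap.add_apply, LinearMap.sub_apply,
    End.one_apply, map_add, map_sub, LinearMap.zero_apply, map_zero] at h1 h2 h3 h4
  rw [h2, h3, h4, sub_zero, zero_add, zero_sub, neg_eq_zero] at h1
  exact hw0 (hUi.eq_zero_of_proj hK _ (f := U.subtype) (fun _ _ => rfl) (w := ⟨w, hw⟩) h1)

variable {F V X : Type*} [Field F] [AddCommGroup V] [Module F V] [Group X]

/-- `a` is trivial on the fixed space of its power `t`, an involution inverting at most a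
plane. -/
structure Refl (ρ : X →* End F V) (k : ℕ) (a t : X) : Prop where
  pow : a ^ 2 ^ k = t
  sq : t * t = 1
  quad : (ρ a - 1) * (ρ t + 1) = 0
  dim : ∃ E : Submodule F V, finrank F E ≤ 2 ∧ ∀ v, ρ t v = -v → v ∈ E

variable {ρ : X →* End F V} {k : ℕ} {a t a' s : X}

theorem Refl.comm (h : Refl ρ k a t) : Commute a t := h.pow ▸ (Commute.refl a).pow_right _

theorem Refl.fix (h : Refl ρ k a t) (h2 : (2 : F) ≠ 0) {v : V} (hv : ρ t v = v) : ρ a v = v := by
  have := LinearMap.congr_fun h.quad v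
  rw [End.mul_apply, LinearMap.add_apply, hv, End.one_apply, ← two_smul F, map_smul] at this
  exact sub_eq_zero.1 ((smul_eq_zero.1 this).resolve_left h2)

theorem Refl.neg (h : Refl ρ k a t) (v : V) : ρ t (ρ a v - v) = -(ρ a v - v) := by
  have := LinearMap.congr_fun h.quad v
  rw [sub_mul, mul_add, ← map_mul, h.comm.eq, map_mul] at this
  simp only [LinearMap.sub_apply, LinearMap.add_apply, End.mul_apply, End.one_apply, mul_one,
    one_mul, LinearMap.zero_apply] at this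
  rw [map_sub, eq_neg_iff_add_eq_zero, ← this]; abel

theorem Refl.not_eigen (h : Refl ρ k a t) (hμ : ∀ μ : F, μ ^ 2 ^ k ≠ -1) {v : V} (h0 : v ≠ 0)
    (hv : ρ t v = -v) {x : F} (hx : ρ a v = x • v) : False := by
  have h1 : ∀ n, ρ (a ^ n) v = x ^ n • v := fun n => by
    induction n with
    | zero => simp
    | succ n ih => rw [pow_succ', rep_mul_apply, ih, map_smul, hx, smul_smul, pow_succ]
  exact hμ x (smul_left_injective F h0 (by rw [← h.pow, h1] at hv; simpa using hv))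

theorem rep_comm {x y : X} (h : Commute x y) (v : V) : ρ x (ρ y v) = ρ y (ρ x v) := by
  rw [← rep_mul_apply, h.eq, rep_mul_apply]

theorem rep_invol {x : X} (h : x * x = 1) (v : V) : ρ x (ρ x v) = v := by
  rw [← rep_mul_apply, h, map_one, End.one_apply]

variable [FiniteDimensional F V]

theorem Refl.conj (h : Refl ρ k a t) (r : X) : Refl ρ k (r * a * r⁻¹) (r * t * r⁻¹) where
  pow := by rw [conj_pow, h.pow]
  sq := by rw [conj_mul, h.sq, mul_one, mul_inv_cancel]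
  quad := by
    have h1 : ρ r * ρ r⁻¹ = 1 := by rw [← map_mul, mul_inv_cancel, map_one]
    have h2 : ρ r⁻¹ * ρ r = 1 := by rw [← map_mul, inv_mul_cancel, map_one]
    have h3 : ρ r * ((ρ a - 1) * (ρ r⁻¹ * ρ r) * (ρ t + 1)) * ρ r⁻¹ = 0 := by
      rw [h2, mul_one, h.quad, mul_zero, zero_mul]
    rw [map_mul, map_mul, map_mul, map_mul, ← h1, ← h3]; noncomm_ring
  dim := by
    obtain ⟨E, h1, h2⟩ := h.dim
    refine ⟨E.map (ρ r), (Submodule.finrank_map_le _ _).trans h1, fun v hv => ⟨ρ r⁻¹ v, h2 _ ?_, by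
      rw [← rep_mul_apply, mul_inv_cancel, map_one, End.one_apply]⟩⟩
    rw [← map_neg, ← hv, ← rep_mul_apply, ← rep_mul_apply]; congr 2; group

theorem Refl.la (h : Refl ρ k a t) (hρ : Function.Injective ρ) (h2 : (2 : F) ≠ 0)
    (hμ : ∀ μ : F, μ ^ 2 ^ k ≠ -1) (hts : Commute t s) (hs : Commute s (a * s * a⁻¹)) {u w : V}
    (hu0 : u ≠ 0) (hu1 : ρ t u = -u) (hu2 : ρ s u = -u) (hw0 : w ≠ 0) (hw1 : ρ t w = -w)
    (hw2 : ρ s w = w) :
    a * s * a⁻¹ = t * s ∧ ∀ v, ρ t v = -v → ρ s v = -v → ∃ x : F, v = x • u := by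
  have hli : ∀ x y : F, x • u + y • w = 0 → x = 0 ∧ y = 0 := fun x y e => by
    have e' := congrArg (ρ s) e
    rw [map_add, map_smul, map_smul, hu2, hw2, map_zero] at e'
    have h3 : (2 * x) • u = 0 := by linear_combination (norm := module) e - e'
    obtain rfl : x = 0 := (mul_eq_zero.1 ((smul_eq_zero.1 h3).resolve_right hu0)).resolve_left h2
    exact ⟨rfl, (smul_eq_zero.1 (by simpa using e)).resolve_right hw0⟩
  have hsp : ∀ v, ρ t v = -v → ∃ x y : F, v = x • u + y • w := fun v hv => by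
    obtain ⟨E, h1, h3⟩ := h.dim
    have h4 : Submodule.span F (Set.range ![u, w]) = E := Submodule.eq_of_le_of_finrank_le
      (Submodule.span_le.2 (by rintro _ ⟨i, rfl⟩; fin_cases i; exacts [h3 _ hu1, h3 _ hw1]))
      (by rw [finrank_span_eq_card (LinearIndependent.pair_iff.2 hli)]; simpa using h1)
    have h5 := h4 ▸ h3 v hv
    rw [Matrix.range_cons, Matrix.range_cons_empty, Set.singleton_union,
      Submodule.mem_span_pair] at h5
    exact h5.imp fun _ h => h.imp fun _ e => e.symm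
  have hu : ∀ v, ρ t v = -v → ρ s v = -v → ∃ x : F, v = x • u := fun v h3 h4 => by
    obtain ⟨x, y, rfl⟩ := hsp v h3
    rw [map_add, map_smul, map_smul, hu2, hw2] at h4
    have := (hli 0 (2 * y) (by rw [← sub_eq_zero.2 h4]; module)).2
    exact ⟨x, by rw [(mul_eq_zero.1 this).resolve_left h2, zero_smul, add_zero]⟩
  have hw : ∀ v, ρ t v = -v → ρ s v = v → ∃ x : F, v = x • w := fun v h3 h4 => by
    obtain ⟨x, y, rfl⟩ := hsp v h3
    rw [map_add, map_smul, map_smul, hu2, hw2] at h4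
    have := (hli (2 * x) 0 (by rw [← sub_eq_zero.2 h4.symm]; module)).1
    exact ⟨y, by rw [(mul_eq_zero.1 this).resolve_left h2, zero_smul, zero_add]⟩
  refine ⟨hρ (LinearMap.ext fun v => ?_), hu⟩
  have hts' : Commute t (a * s * a⁻¹) := (h.comm.symm.mul_right hts).mul_right h.comm.symm.inv_right
  have ha : ∀ v, ρ (a * s * a⁻¹) (ρ a v) = ρ a (ρ s v) := fun v => by
    rw [← rep_mul_apply, inv_mul_cancel_right, rep_mul_apply]
  obtain ⟨α, hα⟩ := hu (ρ (a * s * a⁻¹) u) (by rw [rep_comm hts', hu1, map_neg])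
    (by rw [rep_comm hs, hu2, map_neg])
  obtain ⟨δ, hδ⟩ := hw (ρ (a * s * a⁻¹) w) (by rw [rep_comm hts', hw1, map_neg])
    (by rw [rep_comm hs, hw2])
  obtain rfl : δ = -1 := by
    obtain ⟨x, y, e⟩ := hsp (ρ a u) (by rw [← rep_comm h.comm, hu1, map_neg])
    have h3 := ha u
    rw [hu2, map_neg, e, map_add, map_smul, map_smul, hα, hδ] at h3
    have := (hli (x * (α + 1)) (y * (δ + 1)) (by rw [← sub_eq_zero.2 h3]; module)).2
    exact eq_neg_of_add_eq_zero_left ((mul_eq_zero.1 this).resolve_left fun hy =>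
      h.not_eigen hμ hu0 hu1 (x := x) (by rw [e, hy, zero_smul, add_zero]))
  obtain rfl : α = 1 := by
    obtain ⟨x, y, e⟩ := hsp (ρ a w) (by rw [← rep_comm h.comm, hw1, map_neg])
    have h3 := ha w
    rw [hw2, e, map_add, map_smul, map_smul, hα, hδ] at h3
    have := (hli (x * (α - 1)) (y * (-1 - 1)) (by rw [← sub_eq_zero.2 h3]; module)).1
    exact sub_eq_zero.1 ((mul_eq_zero.1 this).resolve_left fun hx =>
      h.not_eigen hμ hw0 hw1 (x := y) (by rw [e, hx, zero_smul, zero_add]))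
  have h3 : ρ t (v + ρ t v) = v + ρ t v := by rw [map_add, rep_invol h.sq, add_comm]
  have h4 : ρ t (ρ s (v + ρ t v)) = ρ s (v + ρ t v) := by rw [rep_comm hts, h3]
  have h5 := ha (v + ρ t v)
  rw [h.fix h2 h3, h.fix h2 h4, ← h4] at h5
  obtain ⟨x, y, e⟩ := hsp (v - ρ t v) (by rw [map_sub, rep_invol h.sq, neg_sub])
  have h6 : ρ (a * s * a⁻¹) (v - ρ t v) = ρ t (ρ s (v - ρ t v)) := by
    simp only [e, map_add, map_smul, hα, hδ, hu2, hw2, hu1, hw1, map_neg]; module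
  refine smul_right_injective V h2 ?_
  have e2 : (2 : F) • v = (v + ρ t v) + (v - ρ t v) := by module
  simp only [rep_mul_apply _ t, ← map_smul]
  rw [e2, map_add, h5, h6, ← map_add, ← map_add]

theorem Refl.dich (h : Refl ρ k a t) (h' : Refl ρ k a' s) (hρ : Function.Injective ρ)
    (h2 : (2 : F) ≠ 0) (hμ : ∀ μ : F, μ ^ 2 ^ k ≠ -1) (hts : Commute t s)
    (hs : Commute s (a * s * a⁻¹)) (ht : Commute t (a' * t * a'⁻¹)) {j : ℕ}
    (hj : (a * a') ^ 2 ^ j = 1) : t = s ∨ Commute a a' := by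
  by_cases hu : ∀ u, ρ t u = -u → ρ s u = -u → u = 0
  · have key : ∀ {a t a' s : X}, Refl ρ k a t → Refl ρ k a' s → Commute t s →
        (∀ u, ρ t u = -u → ρ s u = -u → u = 0) → ∀ v, ρ a' (ρ a v - v) = ρ a v - v :=
      fun h h' hts hu v => h'.fix h2 (sub_eq_zero.1 (hu _
        (by rw [map_sub, rep_comm hts, h.neg, map_neg]; abel)
        (by rw [map_sub, rep_invol h'.sq, neg_sub])))
    refine .inr (hρ (LinearMap.ext fun v => ?_))
    have h3 := key h h' hts hu v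
    have h4 := key h' h hts.symm (fun u h1 h2 => hu u h2 h1) v
    rw [map_sub, sub_eq_iff_eq_add] at h3 h4
    rw [rep_mul_apply, rep_mul_apply, h3, h4]; abel
  push Not at hu
  obtain ⟨u, hu1, hu2, hu0⟩ := hu
  have key : ∀ {a t a' s : X}, Refl ρ k a t → Refl ρ k a' s → Commute t s →
      Commute s (a * s * a⁻¹) → ρ t u = -u → ρ s u = -u → (∃ w ≠ 0, ρ t w = -w ∧ ρ s w = w) →
      a * s * a⁻¹ = t * s ∧ ∃ w ≠ 0, ρ s w = -w ∧ ρ t w = w :=
    fun {a t a' s} h h' hts hs hu1 hu2 ⟨w, hw0, hw1, hw2⟩ => by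
      obtain ⟨e, h3⟩ := h.la hρ h2 hμ hts hs hu0 hu1 hu2 hw0 hw1 hw2
      have h4 : ρ s (ρ a' u) = -ρ a' u := by rw [← rep_comm h'.comm, hu2, map_neg]
      refine ⟨e, ρ a' u + ρ t (ρ a' u), fun h5 => ?_,
        by rw [map_add, ← rep_comm hts, h4, map_neg, neg_add],
        by rw [map_add, rep_invol h.sq, add_comm]⟩
      obtain ⟨x, hx⟩ := h3 _ (eq_neg_of_add_eq_zero_right h5) h4
      exact h'.not_eigen hμ hu0 hu2 hx
  left
  by_contra hne
  have h3 : (∃ w ≠ 0, ρ t w = -w ∧ ρ s w = w) ∨ ∃ w ≠ 0, ρ s w = -w ∧ ρ t w = w := by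
    by_contra h3
    push Not at h3
    have h4 : ∀ {t s : X}, t * t = 1 → s * s = 1 → Commute t s →
        (∀ w ≠ 0, ρ t w = -w → ρ s w ≠ w) → ∀ v, v - ρ t v + ρ s (v - ρ t v) = 0 :=
      fun ht hs hts h v => by_contra fun h0 => h _ h0
        (by simp only [map_add, map_sub, rep_comm hts, rep_invol ht]; abel)
        (by rw [map_add, rep_invol hs, add_comm])
    refine hne (hρ (LinearMap.ext fun v => smul_right_injective V h2 ?_))
    have h5 := h4 h.sq h'.sq hts h3.1 v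
    have h6 := h4 h'.sq h.sq hts.symm h3.2 v
    rw [map_sub] at h5 h6
    rw [rep_comm hts] at h6
    change (2 : F) • _ = (2 : F) • _
    linear_combination (norm := module) h6 - h5
  have h4 : a * s * a⁻¹ = t * s ∧ a' * t * a'⁻¹ = s * t := h3.elim
    (fun h3 => ⟨(key h h' hts hs hu1 hu2 h3).1,
      (key h' h hts.symm ht hu2 hu1 (key h h' hts hs hu1 hu2 h3).2).1⟩)
    fun h3 => ⟨(key h h' hts hs hu1 hu2 (key h' h hts.symm ht hu2 hu1 h3).2).1,
      (key h' h hts.symm ht hu2 hu1 h3).1⟩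
  have e1 : a * t * a⁻¹ = t := by rw [h.comm.eq, mul_inv_cancel_right]
  have e2 : a' * s * a'⁻¹ = s := by rw [h'.comm.eq, mul_inv_cancel_right]
  let c := MulAut.conj (a * a')
  have c1 : c t = s := by
    rw [show c = _ from map_mul _ a a', MulAut.mul_apply, MulAut.conj_apply a', h4.2, map_mul,
      MulAut.conj_apply, MulAut.conj_apply, h4.1, e1, hts.eq, mul_assoc, h.sq, mul_one]
  have c2 : c s = t * s := by
    rw [show c = _ from map_mul _ a a', MulAut.mul_apply, MulAut.conj_apply a', e2,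
      MulAut.conj_apply, h4.1]
  have c3 : (c ^ 3) t = t := by
    rw [pow_three, MulAut.mul_apply, MulAut.mul_apply, c1, c2, map_mul, c1, c2, hts.eq,
      ← mul_assoc, h'.sq, one_mul]
  have c4 : ∀ n, (c ^ (3 * n + 1)) t = s := fun n => by
    induction n with
    | zero => simpa using c1
    | succ n ih => rw [show 3 * (n + 1) + 1 = 3 * n + 1 + 3 by ring, pow_add, MulAut.mul_apply, c3, ih]
  obtain ⟨n, hn⟩ : ∃ n, 4 ^ j = 3 * n + 1 := ⟨4 ^ j / 3, by
    have : 4 ^ j % 3 = 1 := by rw [Nat.pow_mod]; simp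
    omega⟩
  have := c4 n
  rw [← hn, ← map_pow, show 4 ^ j = 2 ^ j * 2 ^ j by rw [← mul_pow]; rfl, pow_mul, hj, one_pow,
    map_one] at this
  exact hne this

theorem Refl.mem_pPrimePCore {X : Type u} [Group X] [Finite X] {q : ℕ} [hq : Fact q.Prime]
    {V : Type*} [AddCommGroup V] [Module (ZMod q) V] [Finite V] {ρ : X →* End (ZMod q) V}
    {a t : X} (h : Refl ρ k a t) (hρ : Function.Injective ρ) (hX : IsPSolvable 2 X) (hk : 1 ≤ k)
    (hqk : 2 ^ (k + 1) = q + 1) : t ∈ pPrimePCore 2 X := by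
  have hc2 : Nat.Coprime 2 q := by
    rw [← Nat.coprime_pow_left_iff (Nat.succ_pos k), hqk]; simp
  have h2 : (2 : ZMod q) ≠ 0 := fun e => hq.out.one_lt.ne' (Nat.Coprime.eq_one_of_dvd hc2.symm
    ((ZMod.natCast_eq_zero_iff 2 q).1 e))
  have hμ : ∀ μ : ZMod q, μ ^ 2 ^ k ≠ -1 := fun μ e => by
    have h1 : μ ^ 2 = 1 := by
      rw [pow_two, ← ZMod.pow_card μ, ZMod.pow_card μ, ← congrArg (· * μ) (ZMod.pow_card μ),
        ← pow_succ, ← hqk, pow_succ, pow_mul, e, neg_one_sq]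
    obtain ⟨j, rfl⟩ := Nat.exists_eq_add_of_le hk
    rw [pow_add, pow_one, pow_mul, h1, one_pow, eq_neg_iff_add_eq_zero, one_add_one_eq_two] at e
    exact h2 e
  have han : a ^ 2 ^ (k + 1) = 1 := by rw [pow_succ, pow_mul, h.pow, pow_two, h.sq]
  obtain ⟨X₁, _, _, π, hπ, hr, hc⟩ := exists_red hX
  obtain ⟨S, hS, haS, hOS⟩ := exists_sylow_lift hπ (P := zpowers a) (p := 2)
    (IsPGroup.of_card_dvd_pow (by rw [Nat.card_zpowers]; exact orderOf_dvd_of_pow_eq_one han))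
  replace haS := haS (mem_zpowers a)
  obtain ⟨B, -, hBS, hSB, hB⟩ := H50.exists_SCN_ge (A := ⊥) hS.isNilpotent bot_le
    le_normalizer_of_normal inferInstance
  have hBc : B ≤ 𝒞(B) := hB.ge.trans inf_le_right
  obtain ⟨Ψ, hΨ⟩ := exists_baseChange (ZMod q) V
  have htB : t ∈ B := hB.le ⟨h.pow ▸ pow_mem haS _, h.pow ▸ cent_of_quad (Ψ.toMonoidHom.comp ρ)
    (hΨ.comp hρ) (abelian_iff.2 hBc) (natCast_ne_zero_of_coprime
      (H50.coprime_card_of_pgroup (hS.to_le hBS) hc2.symm).symm) (hSB haS) hk han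
      (by simpa [h.pow] using congrArg Ψ h.quad)⟩
  have hcj : ∀ r ∈ S, ∀ b ∈ B, r * b * r⁻¹ ∈ B := fun r hr b => conj_mem_of_normalizer (hSB hr)
  rw [← hc]
  refine hr.cent fun v hv => ?_
  obtain ⟨r, hrS, rfl⟩ := hOS hv
  have ha' := mul_mem (mul_mem hrS haS) (inv_mem hrS)
  obtain ⟨j, hj⟩ := hS ⟨_, mul_mem haS ha'⟩
  rw [← map_mul, ← map_mul]
  rcases h.dich (h.conj r) hρ h2 hμ (hBc (hcj r hrS t htB) t htB)
    (hBc (hcj a haS _ (hcj r hrS t htB)) _ (hcj r hrS t htB))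
    (hBc (hcj _ ha' t htB) t htB) (congrArg Subtype.val hj) with e | e
  · rw [← mul_inv_eq_iff_eq_mul.1 e.symm]
  have h1 : π (r * a * r⁻¹ * a⁻¹) ^ 2 = 1 := hr.ea.2 _ (by
    rw [mul_assoc, mul_assoc, map_mul, ← mul_assoc, map_mul, map_mul, map_inv, map_inv]
    exact mul_mem hv (Normal.conj_mem inferInstance _ (inv_mem hv) _))
  obtain ⟨j, rfl⟩ := Nat.exists_eq_add_of_le hk
  have h3 := congrArg π (e.symm.inv_right.mul_pow (2 ^ (1 + j)))
  rw [map_pow, pow_add, pow_one, pow_mul, h1, one_pow, ← pow_succ', add_comm j, conj_pow, inv_pow,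
    h.pow, map_mul, map_inv, eq_comm, mul_inv_eq_one, map_mul, map_inv,
    mul_inv_eq_iff_eq_mul] at h3
  rw [h3, map_mul]

end Cfsg.Agent.H79
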