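import Cfsg.Agent.H79.Exc

/-!
The exceptional Hall–Higman configuration in characteristic `p`: the operator centralizes the
fixed points of its subgroup of order `p`.
-/

namespace Cfsg.Agent.H79

open Module Finset Subgroup H49
open scoped commutatorElement

variable {K : Type*} [Field K] {U V : Type*} [AddCommGroup U] [Module K U] [AddCommGroup V]
  [Module K V]

theorem Irr.inter_comm_char {R : Type*} [Group R] {σ : R →* End K U} (hσ : Irr σ)
    {ρ : R →* End K V} {α : MulAut R} {b : End K V} {c : End K U}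
    (hb : ∀ g, b * ρ g = ρ (α g) * b) (hc : ∀ g, c * σ g = σ (α g) * c) {n : ℕ}
    (hn : ((n + 1 : ℕ) : K) ≠ 0) (hb0 : (b - 1) ^ (n + 1) = 0) (hc0 : (c - 1) ^ (n + 1) = 0)
    (hc1 : (c - 1) ^ n ≠ 0) {f : U →ₗ[K] V} (hf : ∀ g v, f (σ g v) = ρ g (f v)) (v : U) :
    b (f v) = f (c v) := by
  let L : End K (U →ₗ[K] V) := LinearMap.llcomp K U V V (b - 1)
  let M : End K (U →ₗ[K] V) := LinearMap.lcomp K V (c - 1)
  have hL : ∀ m f v, (L ^ m) f v = ((b - 1) ^ m) (f v) := fun m => by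
    induction m with
    | zero => simp
    | succ m ih => intro f v; rw [pow_succ, End.mul_apply, ih, pow_succ]; rfl
  have hM : ∀ m f v, (M ^ m) f v = f (((c - 1) ^ m) v) := fun m => by
    induction m with
    | zero => simp
    | succ m ih => intro f v; rw [pow_succ, End.mul_apply, ih, pow_succ']; rfl
  obtain ⟨N, hN⟩ : IsNilpotent (L - M) := Commute.isNilpotent_sub (by ext; rfl)
    ⟨n + 1, by ext; simp [hL, hb0]⟩ ⟨n + 1, by ext; simp [hM, hc0]⟩
  have hD : ∀ f v, (L - M) f v = b (f v) - f (c v) := fun f v => by simp [L, M]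
  have htw : ∀ j g v, ((L - M) ^ j) f (σ g v) = ρ ((α ^ j) g) (((L - M) ^ j) f v) := fun j => by
    induction j with
    | zero => simpa using hf
    | succ j ih =>
      intro g v
      rw [pow_succ', End.mul_apply, hD, hD, ih, ← End.mul_apply c, hc, End.mul_apply, ih,
        ← End.mul_apply b, hb, map_sub, ← MulAut.mul_apply, ← MulAut.mul_apply, ← pow_succ,
        ← pow_succ']
      rfl
  by_contra hne
  obtain ⟨j, h1, h2⟩ := Nat.exists_not_and_succ_of_not_zero_of_exists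
    (p := fun j => ((L - M) ^ (j + 1)) f = 0)
    (fun h => hne (by rw [← sub_eq_zero, ← hD]; simpa using congrArg (· v) h))
    ⟨N, by rw [pow_succ, hN]; simp⟩
  set f₁ := ((L - M) ^ j) f
  set f₀ := ((L - M) ^ (j + 1)) f with hf₀
  have h3 : ∀ w, (b - 1) (f₁ w) = f₁ ((c - 1) w) + f₀ w := fun w => by
    rw [hf₀, pow_succ', End.mul_apply, hD]; simp [f₁]
  have h4 : ∀ w, (b - 1) (f₀ w) = f₀ ((c - 1) w) := fun w => by
    have := congrArg (· w) h2
    simp only [pow_succ' _ (j + 1), End.mul_apply, hD, LinearMap.zero_apply, sub_eq_zero] at this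
    simp [hf₀, this]
  have h5 : ∀ i w, ((b - 1) ^ (i + 1)) (f₁ w) =
      f₁ (((c - 1) ^ (i + 1)) w) + ((i + 1 : ℕ) : K) • f₀ (((c - 1) ^ i) w) := fun i w => by
    induction i with
    | zero => simpa using h3 w
    | succ i ih =>
      rw [pow_succ', End.mul_apply, ih, map_add, map_smul, h3, h4, ← End.mul_apply, ← pow_succ',
        ← End.mul_apply (c - 1), ← pow_succ', Nat.cast_succ (i + 1)]
      module
  refine hc1 (LinearMap.ext fun w => hσ.injective (σ' := ρ.comp (α ^ (j + 1)).toMonoidHom)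
    (htw (j + 1)) h1 ?_)
  have := h5 n w
  rw [hb0, hc0, LinearMap.zero_apply, LinearMap.zero_apply, map_zero, zero_add] at this
  rw [(smul_eq_zero.1 this.symm).resolve_left hn, LinearMap.zero_apply, map_zero]

variable [IsAlgClosed K] [FiniteDimensional K V] {X : Type*} [Group X] [Finite X]
  {Q : Subgroup X} {σ : Q →* End K V}

theorem Irr.exc_char [Nontrivial V] {p q k : ℕ} [hp' : Fact p.Prime] [CharP K p] (hq : q.Prime)
    (hpq : p ≠ q) (hQ : IsPGroup q Q) (hqK : (q : K) ≠ 0) (hσ : Irr σ)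
    (hcl : ⁅Q, Q⁆ ≤ radS σ) {s : X} (hs : s ∈ 𝒩(Q)) (hsn : s ^ p ^ (k + 1) = 1) {b : End K V}
    (hb : ∀ g, b * σ g = σ (cjAut Q hs g) * b) (hbn : b ^ p ^ (k + 1) = 1)
    (h0 : ∑ i ∈ range (p ^ (k + 1)), b ^ i = 0) (hE : ¬ perpS σ 𝒞[s ^ p ^ k] ≤ radS σ) :
    (∃ m, 1 ≤ m ∧ p ^ (k + 1) = q ^ m + 1 ∧
      (radS σ).relIndex (perpS σ 𝒞[s ^ p ^ k]) = q ^ (2 * m)) ∧
      ∀ c ∈ Q ⊓ 𝒞[s ^ p ^ k], ⁅s, c⁆ ∈ radS σ := by
  have hp := hp'.out
  set y := s ^ p ^ k with hy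
  set E := perpS σ 𝒞[y]
  have hEQ : E ≤ Q := perpS_le
  have hsS : cjAut Q hs ∈ isoStab σ := mem_isoStab_of_ne_zero hσ (j := b)
    (fun h => by simp [h, hp.ne_zero] at hbn) fun g v => congrArg (· v) (hb g)
  have hyQ : y ∈ 𝒩(Q) := pow_mem hs _
  have hyS : cjAut Q hyQ ∈ isoStab σ := cjAut_pow hs _ ▸ pow_mem hsS _
  have hQp := coprime_of_pgroup hp hq hpq hQ
  have hsy : s ∈ 𝒞[y] := mem_cent1.2 ((Commute.refl s).pow_right _)
  have hsE : s ∈ 𝒩(E) := hσ.mem_norm_perpS hcl hs hsS (le_normalizer hsy)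
  have hQE := hσ.le_perpS_sup hcl hyQ hyS (coprime_orderOf_of_pow (n := 1)
    (by rw [pow_one, hy, ← pow_mul, ← pow_succ, hsn]) hQp)
  let τ := σ.comp (inclusion hEQ)
  obtain ⟨W, hW, -, hW0, hWi⟩ := (inv_top τ).exists_irr top_ne_bot
  haveI : Nontrivial W := Submodule.nontrivial_iff_ne_bot.2 hW0
  haveI := Fintype.ofFinite E
  have hR : radS hW.res = radS σ := hσ.radS_res hcl hQE hW
  have hK := card_ne_zero_of_pgroup hq hqK (hQ.to_le hEQ)
  have hcl' : ∀ g c : E, ⁅g, c⁆ ∈ rad hW.res := fun g c =>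
    coe_mem_radS.1 (hR ▸ hcl (commutator_mem_commutator (hEQ g.2) (hEQ c.2)))
  have hbτ : ∀ g, b * τ g = τ (cjAut E hsE g) * b := fun g => hb (inclusion hEQ g)
  obtain ⟨f, c, hf, hfτ, hfc, hc⟩ := hWi.exists_ext τ (f₀ := W.subtype)
    (fun h => hW0 (by rw [← W.range_subtype, h, LinearMap.range_zero])) (fun _ _ => rfl)
    (hWi.mem_isoStab_of_rad hK hcl' (β := cjAut E hsE) fun g hg => LinearMap.ext fun v =>
      Subtype.ext (LinearMap.congr_fun (hσ.res_cj hs hsS (g := inclusion hEQ g)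
        (hR ▸ coe_mem_radS.2 hg)) v)) hbτ
  have hfp : ∀ i v, f ((c ^ i) v) = (b ^ i) (f v) := fun i v => by
    induction i with
    | zero => rfl
    | succ i ih => rw [pow_succ', pow_succ', End.mul_apply, End.mul_apply, hfc, ih]
  have hcn : c ^ p ^ (k + 1) = 1 := LinearMap.ext fun v => hf (by rw [hfp, hbn]; rfl)
  have hc0 : ∑ i ∈ range (p ^ (k + 1)), c ^ i = 0 := LinearMap.ext fun v => hf (by
    simpa [LinearMap.sum_apply, hfp] using congrArg (· (f v)) h0)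
  rw [geom_sum_char (K := K)] at h0 hc0
  have hα := cjAut_pow_eq_one hsE hsn
  have hfix : ∀ g i, 0 < i → i < p ^ (k + 1) → g⁻¹ * (cjAut E hsE ^ i) g ∈ rad hW.res →
      g ∈ rad hW.res := fun g i h1 h2 h3 => coe_mem_radS.1 (hR ▸ mem_of_cj_pow hp hsE
    (mem_norm_radS hs hsS) hsn (hQp.coprime_dvd_left (card_dvd_of_le radS_le)) (perp_inf_le hQE)
    h1 h2 g.2 (by rw [cjAut_pow] at h3; exact hR ▸ coe_mem_radS.2 h3))
  have hi := hWi.index_rad hK hcl'
  rw [← relIndex_radS, hR] at hi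
  have hd : finrank K W ≠ 1 := fun h => hE (relIndex_eq_one.1 (by rw [hi, h, one_pow]))
  have h1N := Nat.one_lt_pow (n := k + 1) (by omega) hp.one_lt
  obtain ⟨hc1, hdim⟩ := hWi.hh_crit hK hc hcn hα (fun g i h1 h2 h3 => hWi.smul_of_mem_rad
    (hfix g i h1 h2 (by rw [h3, inv_mul_cancel]; exact one_mem _))) hc0 fun h =>
      hE fun g hg => hR ▸ (coe_mem_radS (g := ⟨g, hg⟩)).2 (hfix _ 1 one_pos h1N
        (mem_rad_of_eq_smul (c := 1) (by
          have := hc ⟨g, hg⟩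
          rw [h, one_mul, mul_one] at this
          rw [pow_one, map_mul, ← this, ← map_mul, inv_mul_cancel, map_one, one_smul])))
  obtain ⟨m, hm⟩ := hWi.finrank_eq_pow hq hqK (hQ.to_le hEQ)
  refine ⟨⟨m, Nat.pos_of_ne_zero fun h => hd (by rw [hm, h, pow_zero]), by omega,
    by rw [hi, hm, ← pow_mul, mul_comm]⟩, fun x hx => ?_⟩
  have e1 : p ^ (k + 1) - 2 + 1 = p ^ (k + 1) - 1 := by omega
  have key := fun f' hf' => hWi.inter_comm_char (f := f') hbτ hc (n := p ^ (k + 1) - 2)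
    (by rw [e1, Nat.cast_sub h1N.le]; simp) (e1 ▸ h0) (e1 ▸ hc0) hc1 hf'
  have key2 : ∀ z : Q, (z : X) ∈ 𝒞[y] → ∀ v, b (σ z (f v)) = σ z (f (c v)) := fun z hz =>
    key (σ z ∘ₗ f) fun g v => by
      have := LinearMap.congr_fun (coe_mem_perpS'.1 (show (inclusion hEQ g : X) ∈ E from g.2) z hz)
        (f v)
      simpa [hfτ, τ] using this
  obtain ⟨w, hw⟩ := exists_ne (0 : W)
  have hx' := mul_mem (mul_mem hsy hx.2) (inv_mem hsy)
  refine hσ.mem_radS_of_fix hcl hQE (g := cjAut Q hs ⟨x, hx.1⟩ * (⟨x, hx.1⟩ : Q)⁻¹)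
    (mul_mem hx' (inv_mem hx.2)) (v := f w) (fun h => hw (hf (h.trans (map_zero f).symm)))
    fun z hz => ?_
  have h3 : ∀ z : Q, (z : X) ∈ 𝒞[y] → σ (cjAut Q hs z) (f w) = σ z (f w) := fun z hz => by
    have h4 : c ((c ^ (p ^ (k + 1) - 1)) w) = w := by
      rw [← End.mul_apply, ← pow_succ', Nat.sub_add_cancel (pow_pos hp.pos _), hcn]; rfl
    rw [← h4, ← key2 z hz, hfc, ← End.mul_apply, ← hb]; rfl
  rw [rep_mul_apply, ← rep_mul_apply σ _ z, ← h3 ((⟨x, hx.1⟩ : Q)⁻¹ * z)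
    ((𝒞[y]).mul_mem ((𝒞[y]).inv_mem hx.2) hz), ← rep_mul_apply, ← map_mul, mul_inv_cancel_left,
    h3 z hz]

end Cfsg.Agent.H79
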