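import Cfsg.Agent.H79.Refl
import Cfsg.Agent.H79.Exc2
import Cfsg.Agent.H79.Gross
import Cfsg.Agent.BG.L1_13
import Cfsg.Agent.S3784

/-!
Gross's theorem on exceptional `2`-elements of solvable linear groups in characteristic two.
-/

namespace Cfsg.Agent.H79

open Module Finset Subgroup H49
open scoped commutatorElement

universe u

theorem SecRep.finrank_le {G A V : Type*} [Group G] [Finite G] [Group A] {q : ℕ} [hq : Fact q.Prime]
    [AddCommGroup V] [Module (ZMod q) V] [Finite V] {φ : A →* G} {U W P : Subgroup G}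
    {ρ : A →* End (ZMod q) V} {e : G → V} (h : SecRep φ U W ρ e) (hP : P ≤ U) {m : ℕ}
    (hi : W.relIndex P = q ^ m) {E : Submodule (ZMod q) V} (hE : ∀ v ∈ E, ∃ u ∈ P, e u = v) :
    finrank (ZMod q) E ≤ m := by
  let f : P →* Multiplicative V := MonoidHom.mk' (fun u => Multiplicative.ofAdd (e u))
    fun a b => congrArg Multiplicative.ofAdd (h.mul _ (hP a.2) _ (hP b.2))
  have h1 : f.ker = W.subgroupOf P := by ext u; exact h.zero _ (hP u.2)
  have h2 : Nat.card E ≤ Nat.card f.range := Nat.card_le_card_of_injective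
    (fun v => ⟨Multiplicative.ofAdd v.1, by obtain ⟨u, hu, e⟩ := hE v v.2; exact ⟨⟨u, hu⟩, e ▸ rfl⟩⟩)
    fun v w h => Subtype.ext (congrArg (fun x : f.range => Multiplicative.toAdd x.1) h)
  rw [← index_ker, h1, Module.natCard_eq_pow_finrank (K := ZMod q), Nat.card_zmod] at h2
  exact (Nat.pow_le_pow_iff_right hq.out.one_lt).1 (h2.trans hi.le)

variable {K : Type*} [Field K] {V : Type*} [AddCommGroup V] [Module K V] [IsAlgClosed K]
  [FiniteDimensional K V] [CharP K 2] {X : Type u} [Group X] [Finite X]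

theorem Irr.refl_sec [Nontrivial V] {Q : Subgroup X} {σ : Q →* End K V} {q k : ℕ}
    [hq : Fact q.Prime] (hq2 : 2 ≠ q) (hQ : IsPGroup q Q) (hqK : (q : K) ≠ 0) (hσ : Irr σ)
    (hcl : ⁅Q, Q⁆ ≤ radS σ) {s : X} (hs : s ∈ 𝒩(Q)) (hsn : s ^ 2 ^ (k + 1) = 1) {b : End K V}
    (hb : ∀ g, b * σ g = σ (cjAut Q hs g) * b) (hbn : b ^ 2 ^ (k + 1) = 1)
    (h0 : ∑ i ∈ range (2 ^ (k + 1)), b ^ i = 0) {W : Type*} [AddCommGroup W] [Module (ZMod q) W]
    [Finite W] {φ : stabS σ →* End (ZMod q) W} {ε : X → W}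
    (hsec : SecRep (stabS σ).subtype Q (radS σ) φ ε) (hX : Group.IsSolvable X) (hsS : s ∈ stabS σ) :
    QuotientGroup.mk' φ.ker (⟨s, hsS⟩ ^ 2 ^ k) ∈ pPrimePCore 2 (stabS σ ⧸ φ.ker) := by
  obtain ⟨hτ, hτS⟩ := mem_stabS.1 (pow_mem hsS (2 ^ k))
  by_cases hE : perpS σ 𝒞[s ^ 2 ^ k] ≤ radS σ
  · rw [QuotientGroup.mk'_apply, (QuotientGroup.eq_one_iff _).2 ((hsec.eq_one_iff _).2
      fun u hu => hE (hσ.comm_mem_perpS hcl hτ hτS hu))]
    exact one_mem _
  obtain ⟨⟨m, hm, hqm, hi⟩, hcen⟩ := hσ.exc_char hq.out hq2 hQ hqK hcl hs hsn hb hbn h0 hE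
  obtain rfl : m = 1 := by
    rcases S3784.result 2 q (k + 1) m Nat.prime_two hq.out (by omega) hm hqm with h | h | h
    · exact h.2.1
    · exact absurd h.1.symm hq2
    · have := h.1; rw [pow_succ] at this; omega
  rw [pow_one] at hqm
  have hk : 1 ≤ k := by
    by_contra h
    obtain rfl : k = 0 := by omega
    have := hq.out.one_lt
    omega
  have h4 : s ^ 2 ^ k * s ^ 2 ^ k = 1 := by rw [← pow_two, ← pow_mul, ← pow_succ, hsn]
  have h2 : (2 : ZMod q) ≠ 0 := fun e => hq2 ((Nat.prime_dvd_prime_iff_eq hq.out Nat.prime_two).1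
    ((ZMod.natCast_eq_zero_iff 2 q).1 e)).symm
  refine Refl.mem_pPrimePCore (ρ := H79.fth φ) (a := QuotientGroup.mk' φ.ker ⟨s, hsS⟩)
    ⟨(map_pow _ _ _).symm, by rw [← map_mul, show _ * _ = (1 : stabS σ) from Subtype.ext h4, map_one],
      LinearMap.ext fun v => ?_, LinearMap.range (φ (⟨s, hsS⟩ ^ 2 ^ k) - 1),
      hsec.finrank_le perpS_le hi ?_, fun v hv => ⟨(-2⁻¹ : ZMod q) • v, ?_⟩⟩
    (fth_injective φ) H22.isPSolvable_of_isSolvable hk hqm
  · obtain ⟨u, hu, rfl⟩ := hsec.surj v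
    have h1 := conj_mem_of_normalizer hτ hu
    obtain ⟨r, hr, h3⟩ := lift_cent1 hτ (mem_norm_radS _ hτS) (coprime_orderOf_of_pow (n := 1)
      (by rw [pow_one, pow_two, h4]) (coprime_of_pgroup Nat.prime_two hq.out hq2 (hQ.to_le radS_le)))
      (mul_mem h1 hu) (by
        rw [cj_norm_invol h4]
        exact hcl (commutator_mem_commutator (inv_mem hu) (inv_mem h1)))
    rw [fth_mk, fth_mk, End.mul_apply, LinearMap.add_apply, hsec.conj _ _ hu, End.one_apply,
      ← add_zero (_ + ε u), ← (hsec.zero _ hr.2).2 hr.1]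
    simp only [Subgroup.subtype_apply, Subgroup.coe_pow]
    rw [← hsec.mul _ h1 _ hu, ← hsec.mul _ (mul_mem h1 hu) _ hr.2,
      hsec.sub_one_apply _ (mul_mem (mul_mem h1 hu) hr.2)]
    have h5 := hcen _ ⟨mul_mem (mul_mem h1 hu) hr.2, h3⟩
    exact (hsec.zero _ (radS_le h5)).2 h5
  · rintro _ ⟨v, rfl⟩
    obtain ⟨u, hu, rfl⟩ := hsec.surj v
    exact ⟨_, hσ.comm_mem_perpS hcl hτ hτS hu, (hsec.sub_one_apply (⟨s, hsS⟩ ^ 2 ^ k) hu).symm⟩
  · rw [fth_mk] at hv
    rw [map_smul, LinearMap.sub_apply, hv, End.one_apply, ← neg_add', ← two_smul (ZMod q), smul_neg,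
      smul_smul, neg_mul, inv_mul_cancel₀ h2, neg_smul, neg_neg, one_smul]

omit [Finite X] in
theorem mem_pPrimeCore_of_odd {Y : Type*} [Group Y] {p : ℕ} [hp : Fact p.Prime] {g : Y}
    (hg : g ∈ pPrimePCore p Y) {m : ℕ} (hm : m.Coprime p) (h : g ^ m = 1) : g ∈ pPrimeCore p Y := by
  obtain ⟨k, hk⟩ := H22.isPGroup_pCore ⟨_, hg⟩
  refine (QuotientGroup.eq_one_iff g).1 ((pow_eq_one_iff_of_coprime (hm.pow_right k)).1 ⟨?_, ?_⟩)
  · rw [← QuotientGroup.mk_pow, h, QuotientGroup.mk_one]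
  · exact congrArg Subtype.val hk

theorem gross2_lin (ρ : X →* End K V) (hρ : Function.Injective ρ) (hX : Group.IsSolvable X)
    (hO : pCore 2 X = ⊥) {n : ℕ} (he : PExp 2 (n + 1) X)
    (h0 : ∀ y : X, (∃ k, y ^ 2 ^ k = 1) → ∑ i ∈ range (2 ^ (n + 1)), ρ y ^ i = 0) {x : X}
    (hx : ∃ k, x ^ 2 ^ k = 1) : x ^ 2 ^ n ∈ pPrimePCore 2 X := by
  have hN : ∀ (N : Subgroup X) [N.Normal] (s : X), s ∈ 𝒩(N) :=
    fun N _ _ => normal_iff_top_le_norm.1 inferInstance trivial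
  set D := normalClosure {x ^ 2 ^ n} with hD
  set M := Subgroup.closure {g | g ∈ D ∧ ∃ m, m.Coprime 2 ∧ g ^ m = 1} with hM
  haveI : M.Normal := ⟨fun g hg c => (show M ≤ M.comap (MulAut.conj c).toMonoidHom from
    (closure_le _).2 fun g ⟨h1, m, h2, h3⟩ => subset_closure ⟨Normal.conj_mem inferInstance _ h1 c,
      m, h2, by simp [conj_pow, h3]⟩) hg⟩
  have key : ∀ w ∈ M, w ^ 2 ^ 1 = 1 → w = 1 := fun w hw hw2 => by
    have h1 : fittingOf (⊤ : Subgroup X) ≤ 𝒞[w] := by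
      refine nilpotent_le_of_pcore (fittingOf_nil _) fun q hq _ => ?_
      haveI := Fact.mk hq
      rw [pcore_fittingOf]
      rcases eq_or_ne (piCoreOf {q} ⊤) (⊥ : Subgroup X) with hR | hR
      · exact hR.le.trans bot_le
      have hq2 : 2 ≠ q := fun e => hR (e ▸ piCoreOf_map_eq_bot Nat.prime_two hO ⊤)
      have hRq := (piCoreOf_pi {q} (⊤ : Subgroup X)).isPGroup hq
      obtain ⟨Q, hQR, -, hn, hcl, hexp, hc⟩ := BG.l1_13 hq2.symm hRq hR
      have hRN : ∀ g : X, g ∈ 𝒩(piCoreOf {q} ⊤) := fun g =>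
        norm_piCoreOf (A := ⊤) _ le_normalizer_of_normal trivial
      have hQN := fun g => hn (hRN g)
      have hQ := hRq.to_le hQR
      have hc2 := (Nat.coprime_primes hq Nat.prime_two).2 hq2.symm
      have hqK : (q : K) ≠ 0 := fun h => hq2
        ((Nat.prime_dvd_prime_iff_eq Nat.prime_two hq).1 ((CharP.cast_eq_zero_iff K 2 q).1 h))
      rw [← cent_zpowers]
      refine cent_symm (zpowers_le.2 (hc w (hRN w) (coprime_orderOf_of_pow hw2 hc2) ?_))
      haveI := Fintype.ofFinite Q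
      have hK := card_ne_zero_of_pgroup hq hqK hQ
      refine fun g hg => (mul_inv_eq_iff_eq_mul.1 (hρ (by_contra fun hne => ?_))).symm
      obtain ⟨U, hU, hU0, hUi, hne'⟩ := exists_irr_ne (ρ.comp Q.subtype) hK
        (g := cjAut Q (hQN w) ⟨g, hg⟩) (k := ⟨g, hg⟩) hne
      haveI : Nontrivial U := Submodule.nontrivial_iff_ne_bot.2 hU0
      have hcl' : ⁅Q, Q⁆ ≤ radS hU.res :=
        ((commutator_mono le_rfl hQR).trans hcl).trans cent_le_radS
      obtain ⟨W, _, _, _, φ, ε, hsec⟩ := exists_secRep (r := q) (stabS hU.res).subtype (U := Q)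
        (W := radS hU.res) (fun a => hQN a) (fun a => mem_norm_radS _ (mem_stabS.1 a.2).2) radS_le
        hcl' fun u hu => hexp u hu ▸ one_mem _
      let π := QuotientGroup.mk' φ.ker
      have h2 : D ≤ ((pPrimePCore 2 _).comap π).map (stabS hU.res).subtype := by
        refine (closure_le _).2 fun y hy => ?_
        obtain ⟨_, rfl, hy⟩ := Group.mem_conjugatesOfSet_iff.1 hy
        obtain ⟨c, rfl⟩ := isConj_iff.1 hy
        have hx' : ∃ k, (c * x * c⁻¹) ^ 2 ^ k = 1 := hx.imp fun k hk => by simp [conj_pow, hk]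
        rw [← conj_pow]
        generalize c * x * c⁻¹ = y at hx'
        obtain ⟨e, k, b, hek, hdvd, hb, hbk, hb0⟩ := clifford_at _ hK (rep_cjAut ρ (hQN y))
          Nat.prime_two (by rw [← map_pow, he y hx', map_one]) (cjAut_pow_eq_one _ (he y hx'))
          (h0 y hx') hU hU0 hUi
        obtain rfl : n = e + k := by omega
        rw [cjAut_pow] at hb
        have hS : y ^ 2 ^ e ∈ stabS hU.res :=
          mem_stabS.2 ⟨_, cjAut_pow (hQN y) _ ▸ (hdvd _).2 dvd_rfl⟩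
        exact ⟨_, hUi.refl_sec hq2 hQ hqK hcl' _
          (by rw [← pow_mul, ← pow_add, ← add_assoc, he y hx']) hb hbk hb0 hsec hX hS,
          by simp [← pow_mul, ← pow_add]⟩
      have h3 : M ≤ ((pPrimeCore 2 _).comap π).map (stabS hU.res).subtype := by
        refine (closure_le _).2 fun y ⟨h1, m, hm, h3⟩ => ?_
        obtain ⟨y, hy, rfl⟩ := h2 h1
        exact ⟨y, mem_pPrimeCore_of_odd hy hm
          (by rw [← map_pow, show y ^ m = 1 from Subtype.ext h3, map_one]), rfl⟩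
      obtain ⟨w, hw', rfl⟩ := h3 hw
      have h4 : π w = 1 := orderOf_eq_one_iff.1 (Nat.Coprime.eq_one_of_dvd
        (coprime_orderOf_of_pow (p := 2) (n := 1)
          (by rw [← map_pow, show w ^ 2 ^ 1 = 1 from Subtype.ext hw2, map_one])
          H22.coprime_card_pPrimeCore) (Subgroup.orderOf_dvd_natCard _ hw'))
      obtain ⟨_, hwS⟩ := mem_stabS.1 w.2
      obtain ⟨r, hr, h5⟩ := lift_cent1 (hQN w) (mem_norm_radS _ hwS) (coprime_orderOf_of_pow hw2
        (coprime_of_pgroup Nat.prime_two hq hq2 (hQ.to_le radS_le))) hg (by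
          have := conj_mem_of_normalizer (norm_radS (inv_mem hg))
            ((hsec.eq_one_iff w).1 ((QuotientGroup.eq_one_iff _).1 h4) g hg)
          simpa [commutatorElement_def, mul_assoc] using this)
      have h6 : cjAut Q (hQN w) (⟨g, hg⟩ * ⟨r, hr.2⟩) = ⟨g, hg⟩ * ⟨r, hr.2⟩ :=
        Subtype.ext (mul_inv_eq_iff_eq_mul.2 (mem_cent1.1 h5).symm)
      refine hne' ?_
      rw [← mul_inv_cancel_right (⟨g, hg⟩ : Q) ⟨r, hr.2⟩, map_mul, map_mul, map_mul hU.res (_ * _)]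
      exact congrArg₂ (· * ·) (congrArg hU.res h6)
        (hUi.res_cj _ hwS (g := (⟨r, hr.2⟩ : Q)⁻¹) (inv_mem hr.1))
    have h2 := cent_fittingOf_le (H := ⊤) inferInstance
      ⟨trivial, cent_symm (h1.trans (cent_zpowers w).ge) (mem_zpowers w)⟩
    have h3 := nilpotent_le_piCoreOf (fittingOf_nil _) (zpowers_le.2 h2) (isPi_of_isPGroup
      Nat.prime_two (IsPGroup.of_card_dvd_pow
        (by rw [Nat.card_zpowers]; exact orderOf_dvd_of_pow_eq_one hw2)))
    rw [pcore_fittingOf, piCoreOf_map_eq_bot Nat.prime_two hO] at h3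
    exact h3 (mem_zpowers w)
  have hMO : M ≤ pPrimeCore 2 X := H22.le_pPrimeCore inferInstance
    ((Nat.Prime.coprime_iff_not_dvd Nat.prime_two).2 fun h => by
      obtain ⟨w, hw⟩ := exists_prime_orderOf_dvd_card' 2 h
      have := key w w.2 (by rw [← Subgroup.orderOf_coe] at hw; rw [pow_one, ← hw, pow_orderOf_eq_one])
      rw [← Subgroup.orderOf_coe, this, orderOf_one] at hw
      omega).symm
  refine H22.le_pCore (N := D.map (QuotientGroup.mk' _))
    (Normal.map inferInstance _ (QuotientGroup.mk'_surjective _)) ?_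
    (mem_map_of_mem _ (subset_normalClosure rfl))
  rintro ⟨_, g, hg, rfl⟩
  obtain ⟨j, m, hm, e⟩ := Nat.exists_eq_two_pow_mul_odd (orderOf_pos g).ne'
  refine ⟨j, Subtype.ext ?_⟩
  rw [Subgroup.coe_pow, ← map_pow]
  exact (QuotientGroup.eq_one_iff _).2 (hMO (subset_closure ⟨pow_mem hg _, m,
    Nat.coprime_two_right.2 hm, by rw [← pow_mul, ← e, pow_orderOf_eq_one]⟩))

end Cfsg.Agent.H79
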