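import Cfsg.Agent.S0110
import Cfsg.Agent.S0636
import Cfsg.Agent.H3.ClassTwo
import Cfsg.Agent.H22.PGroupMisc

/-! Orbits, part 1: subsets moved by all conjugates, and `p`-groups of symplectic type (`p` odd). -/

set_option autoImplicit false
open Cfsg Subgroup
open scoped commutatorElement

namespace Cfsg.Agent.H79

/-- A non-trivially acting element of a normal `p`-subgroup: some subset is moved by all its
conjugates. -/
theorem exists_set_moved {M Ω : Type*} [Group M] [Finite M] [MulAction M Ω] {p : ℕ} [Fact p.Prime]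
    {P : Subgroup M} [hPn : P.Normal] (hP : IsPGroup p P) {a : M} (ha : a ∈ P) {S : Set Ω}
    (hS : ∀ g : M, ∀ ω ∈ S, g • ω ∈ S) {ω₀ : Ω} (h0 : ω₀ ∈ S) (hm : a • ω₀ ≠ ω₀) :
    ∃ Δ ⊆ S, ∀ g : M, ∃ ω ∈ Δ, (g * a * g⁻¹) • ω ∉ Δ := by
  let fx : Subgroup M → M → Prop := fun L x => ∀ ω ∈ S, ∃ l ∈ L, x • ω = l • ω
  have fxc : ∀ L : Subgroup M, L.Normal → ∀ x g, fx L x → fx L (g * x * g⁻¹) := by
    intro L hL x g h ω hω
    obtain ⟨l, hl, e⟩ := h _ (hS g⁻¹ ω hω)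
    exact ⟨g * l * g⁻¹, hL.conj_mem l hl g, by simp only [mul_smul, e]⟩
  obtain ⟨L, -, ⟨hLn, hLP, hLa⟩, hmax⟩ := exists_maximal_ge_of_wellFoundedGT
    (fun L : Subgroup M => L.Normal ∧ L ≤ P ∧ ¬ fx L a) ⊥ ⟨inferInstance, bot_le, fun h => by
      obtain ⟨l, hl, e⟩ := h ω₀ h0
      rw [mem_bot.1 hl, one_smul] at e
      exact hm e⟩
  let Z : Subgroup M :=
    { carrier := {x | x ∈ P ∧ ∀ y ∈ P, ⁅y, x⁆ ∈ L}
      one_mem' := ⟨P.one_mem, fun y _ => by simp⟩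
      mul_mem' := fun {x x'} hx hx' => ⟨P.mul_mem hx.1 hx'.1, fun y hy => by
        rw [show ⁅y, x * x'⁆ = ⁅y, x⁆ * (x * ⁅y, x'⁆ * x⁻¹) by simp only [commutatorElement_def]; group]
        exact L.mul_mem (hx.2 y hy) (hLn.conj_mem _ (hx'.2 y hy) x)⟩
      inv_mem' := fun {x} hx => ⟨P.inv_mem hx.1, fun y hy => by
        rw [show ⁅y, x⁻¹⁆ = x⁻¹ * ⁅y, x⁆⁻¹ * x⁻¹⁻¹ by simp only [commutatorElement_def]; group]
        exact hLn.conj_mem _ (L.inv_mem (hx.2 y hy)) _⟩ }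
  have hZn : Z.Normal := ⟨fun x hx g => ⟨hPn.conj_mem x hx.1 g, fun y hy => by
    rw [show ⁅y, g * x * g⁻¹⁆ = g * ⁅g⁻¹ * y * g⁻¹⁻¹, x⁆ * g⁻¹ by
      simp only [commutatorElement_def]; group]
    exact hLn.conj_mem _ (hx.2 _ (hPn.conj_mem y hy _)) g⟩⟩
  have hLZ : L ≤ Z := fun x hx => ⟨hLP hx, fun y _ => by
    rw [commutatorElement_def]
    exact L.mul_mem (hLn.conj_mem x hx y) (L.inv_mem hx)⟩
  have hZa : fx Z a := by
    by_contra hZ
    have hZL := hmax ⟨hZn, fun x hx => hx.1, hZ⟩ hLZ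
    have hnt : Nontrivial (P.map (QuotientGroup.mk' L)) := by
      rw [nontrivial_iff_ne_bot]
      intro hb
      rw [Subgroup.map_eq_bot_iff, QuotientGroup.ker_mk'] at hb
      exact hLa fun ω _ => ⟨a, hb ha, rfl⟩
    obtain ⟨⟨⟨_, x, hx, rfl⟩, hz⟩, hz1⟩ := @exists_ne _ (hP.map (QuotientGroup.mk' L)).center_nontrivial 1
    apply hz1
    have hxZ : x ∈ Z := ⟨hx, fun y hy => by
      rw [← QuotientGroup.eq_one_iff]
      change QuotientGroup.mk' L ⁅y, x⁆ = 1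
      rw [map_commutatorElement, commutatorElement_eq_one_iff_mul_comm]
      exact congrArg Subtype.val (mem_center_iff.1 hz ⟨_, y, hy, rfl⟩)⟩
    exact Subtype.ext (Subtype.ext ((QuotientGroup.eq_one_iff x).2 (hZL hxZ)))
  let rep : Ω → Ω := fun ω => (Quotient.mk (MulAction.orbitRel Z Ω) ω).out
  have rep1 : ∀ ω, ∃ z ∈ Z, rep ω = z • ω := fun ω => by
    obtain ⟨z, hz⟩ : rep ω ∈ MulAction.orbit Z ω := Quotient.mk_out (s := MulAction.orbitRel Z Ω) ω
    exact ⟨z, z.2, hz.symm⟩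
  have rep2 : ∀ z ∈ Z, ∀ ω, rep (z • ω) = rep ω := fun z hz ω =>
    congrArg Quotient.out (Quotient.sound (s := MulAction.orbitRel Z Ω) ⟨⟨z, hz⟩, rfl⟩)
  refine ⟨{ω | ω ∈ S ∧ ∃ l ∈ L, ω = l • rep ω}, fun ω h => h.1, fun g => ?_⟩
  by_contra hc
  push Not at hc
  apply hLa
  rw [show a = g⁻¹ * (g * a * g⁻¹) * g⁻¹⁻¹ by group]
  refine fxc L hLn _ _ fun ω hω => ?_
  set b := g * a * g⁻¹
  have hb : b ∈ P := hPn.conj_mem a ha g
  obtain ⟨z, hz, e⟩ := rep1 ω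
  have h1 : rep (rep ω) = rep ω := by conv_lhs => rw [e, rep2 z hz]
  have hS1 : rep ω ∈ S := e ▸ hS z ω hω
  obtain ⟨-, l, hl, e2⟩ := hc (rep ω) ⟨hS1, 1, L.one_mem, by rw [h1, one_smul]⟩
  obtain ⟨z', hz', e3⟩ := fxc Z hZn a g hZa _ hS1
  rw [e3, rep2 z' hz', h1, ← e3, e] at e2
  refine ⟨⁅b, z⁻¹⁆ * (z⁻¹ * l * z⁻¹⁻¹), L.mul_mem ((Z.inv_mem hz).2 b hb) (hLn.conj_mem l hl _), ?_⟩
  rw [show ⁅b, z⁻¹⁆ * (z⁻¹ * l * z⁻¹⁻¹) = b * z⁻¹ * b⁻¹ * l * z by
    simp only [commutatorElement_def]; group]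
  simp only [mul_smul]
  rw [← e2, inv_smul_smul, inv_smul_smul]

/-- `E C(E) = G` as soon as `[G, E] ≤ Z(E)` has order `p`. -/
theorem sup_centralizer_eq_top {G : Type*} [Group G] [Finite G] {p : ℕ} [Fact p.Prime]
    (hG : IsPGroup p G) (E : Subgroup G) [hEn : E.Normal]
    (hZ : Nat.card (E ⊓ centralizer (E : Set G) : Subgroup G) = p)
    (hZc : E ⊓ centralizer (E : Set G) ≤ center G)
    (hcomm : ∀ x ∈ E, ∀ g : G, ⁅x, g⁆ ∈ E ⊓ centralizer (E : Set G)) :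
    E ⊔ centralizer (E : Set G) = ⊤ := by
  have hpp : p.Prime := Fact.out
  set C := centralizer (E : Set G) with hC
  obtain ⟨K, -, ⟨hKE, hK⟩, hmax⟩ := exists_maximal_ge_of_wellFoundedGT
    (fun K : Subgroup G => K ≤ E ∧ (centralizer (K : Set G)).index * p ≤ Nat.card K)
    (E ⊓ C) ⟨inf_le_left, by
      rw [centralizer_eq_top_iff_subset.mpr hZc, index_top, one_mul, hZ]⟩
  have hKeq : K = E := by
    by_contra hne
    obtain ⟨x, hxE, hxK⟩ := SetLike.exists_of_lt (lt_of_le_of_ne hKE hne)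
    have hlt : K < K ⊔ zpowers x := lt_of_le_of_ne le_sup_left fun h =>
      hxK (h ▸ mem_sup_right (mem_zpowers x))
    refine hlt.not_ge (hmax ⟨sup_le hKE (zpowers_le.mpr hxE), ?_⟩ hlt.le)
    have h1 : centralizer ((K ⊔ zpowers x : Subgroup G) : Set G) =
        centralizer {x} ⊓ centralizer (K : Set G) := by
      refine le_antisymm (le_inf (centralizer_le (by
        simpa using mem_sup_right (mem_zpowers x))) (centralizer_le hlt.le)) ?_
      rw [le_centralizer_iff]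
      refine sup_le (le_centralizer_iff.mp inf_le_right) (zpowers_le.mpr ?_)
      exact fun y hy => mem_centralizer_singleton_iff.mp hy.1
    refine le_trans ?_ (S0110.card_mul_le_of_lt (hG.to_subgroup _) hlt)
    refine Nat.mul_le_mul_right _ (le_trans ?_ hK)
    rw [← relIndex_mul_index (centralizer_le hlt.le :
      centralizer ((K ⊔ zpowers x : Subgroup G) : Set G) ≤ _), h1, inf_relIndex_right, mul_comm]
    exact Nat.mul_le_mul_left _ (hZ ▸ H4.relIndex_centralizer_le fun c _ => hcomm x hxE c)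
  subst hKeq
  have h2 := H2.card_sup_mul_card_inf_of_normal K C
  rw [hZ] at h2
  refine eq_top_of_le_card _ (Nat.le_of_mul_le_mul_right ?_ hpp.pos)
  rw [h2, ← C.index_mul_card, mul_right_comm]
  exact Nat.mul_le_mul_right _ hK

/-- P. Hall's theorem for odd `p`, in the form needed for regular orbits. -/
theorem symp_odd {G : Type*} [Group G] [Finite G] [Nontrivial G] {p : ℕ} [hp : Fact p.Prime]
    (hp2 : p ≠ 2) (hG : IsPGroup p G)
    (hc : ∀ B : Subgroup G, B.Characteristic → IsElementaryAbelian p B → Nat.card B ≤ p) :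
    ∃ z : G, orderOf z = p ∧ z ∈ center G ∧ (zpowers z).Characteristic ∧
      ∃ E : Subgroup G, (∀ x, x ∈ E ↔ x ^ p = 1) ∧ ∀ x ∈ E, ∀ y, ⁅x, y⁆ ∈ zpowers z := by
  have hodd : Odd p := hp.out.odd_of_ne_two hp2
  have cc : ∀ {c : G}, c ∈ center G → ∀ g, Commute g c := fun hc g => mem_center_iff.1 hc g
  have z2 : ∀ x, x ∈ Subgroup.upperCentralSeries G 2 ↔ ∀ y, ⁅x, y⁆ ∈ center G := fun x => by
    rw [Subgroup.mem_upperCentralSeries_succ_iff, Subgroup.upperCentralSeries_one]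
  have cp : ∀ x, x ∈ Subgroup.upperCentralSeries G 2 → x ^ p = 1 → ∀ y : G, ⁅x, y⁆ ^ p = 1 :=
      fun x hx h y => by
    rw [← H3.commutator_pow_left_of_commute (cc ((z2 x).1 hx y) x), h, commutatorElement_one_left]
  let E : Subgroup G :=
    { carrier := {x | x ∈ Subgroup.upperCentralSeries G 2 ∧ x ^ p = 1}
      one_mem' := ⟨one_mem _, one_pow p⟩
      mul_mem' := fun {x y} hx hy => ⟨mul_mem hx.1 hy.1, by
        rw [H3.mul_pow_of_odd_of_commute_commutator (cc ((z2 y).1 hy.1 x) x)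
          (cc ((z2 y).1 hy.1 x) y) hodd (cp y hy.1 hy.2 x), hx.2, hy.2, one_mul]⟩
      inv_mem' := fun {x} hx => ⟨inv_mem hx.1, by rw [inv_pow, hx.2, inv_one]⟩ }
  have hEc : E.Characteristic := characteristic_iff_le_comap.2 fun φ x hx =>
    ⟨characteristic_iff_le_comap.1 (inferInstance : (Subgroup.upperCentralSeries G 2).Characteristic) φ hx.1,
      by change (φ x) ^ p = 1; rw [← map_pow, hx.2, map_one]⟩
  set C := centralizer (E : Set G) with hC
  have hZc : (E ⊓ C).Characteristic := characteristic_iff_le_comap.2 fun φ x hx =>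
    ⟨characteristic_iff_le_comap.1 hEc φ hx.1,
      characteristic_iff_le_comap.1 (inferInstance : C.Characteristic) φ hx.2⟩
  have hZe : IsElementaryAbelian p (E ⊓ C) :=
    ⟨⟨⟨fun x y => Subtype.ext (y.2.2 x x.2.1)⟩⟩, fun x hx => hx.1.2⟩
  obtain ⟨z, -, hz, hzo⟩ := H3.exists_mem_center_orderOf_eq hG ⊤ top_ne_bot
  have cE : ∀ c ∈ center G, c ^ p = 1 → c ∈ E ⊓ C := fun c hc h =>
    ⟨⟨(z2 c).2 fun y => by
      rw [commutatorElement_eq_one_iff_mul_comm.2 (cc hc y).symm.eq]; exact one_mem _, h⟩,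
      fun y _ => (cc hc y).eq⟩
  have hzZ : zpowers z = E ⊓ C := eq_of_le_of_card_ge
    (zpowers_le.2 (cE z hz (hzo ▸ pow_orderOf_eq_one z)))
    (by rw [Nat.card_zpowers, hzo]; exact hc _ hZc hZe)
  have hcomm : ∀ x ∈ E, ∀ g : G, ⁅x, g⁆ ∈ E ⊓ C := fun x hx g =>
    cE _ ((z2 x).1 hx.1 g) (cp x hx.1 hx.2 g)
  have htop := sup_centralizer_eq_top hG E (by rw [← hzZ, Nat.card_zpowers, hzo])
    (by rw [← hzZ]; exact zpowers_le.2 hz) hcomm
  have hCc : IsCyclic C := by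
    by_contra hn
    obtain ⟨A, hAC, hAn, hAe, hA⟩ := S0636.result hp2 hG C hn
    have h1 : A ≤ zpowers z := fun x hx =>
      hzZ ▸ ⟨⟨H22.le_upperCentralSeries_of_normal hG 2 A hA hx, hAe.2 x hx⟩, hAC hx⟩
    have h2 := card_le_of_le h1
    rw [Nat.card_zpowers, hzo, hA] at h2
    have := hp.out.one_lt
    nlinarith
  have hCz : C ≤ center G := by
    intro c hcC
    have h1 : E ⊔ C ≤ centralizer {c} := sup_le
      (fun x hx => mem_centralizer_singleton_iff.2 (hcC x hx))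
      (fun x hx => mem_centralizer_singleton_iff.2
        (congrArg Subtype.val ((hCc.commutative (α := C)).is_comm.comm ⟨x, hx⟩ ⟨c, hcC⟩)))
    exact mem_center_iff.2 fun g => mem_centralizer_singleton_iff.1 (h1 (htop ▸ mem_top g))
  refine ⟨z, hzo, hz, hzZ ▸ hZc, E, fun x => ⟨fun h => h.2, fun h => ⟨?_, h⟩⟩,
    fun x hx y => hzZ ▸ hcomm x hx y⟩
  have h1 : E ⊔ C ≤ Subgroup.upperCentralSeries G 2 := sup_le (fun x hx => hx.1) fun c hc => (z2 c).2 fun y => by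
    rw [commutatorElement_eq_one_iff_mul_comm.2 (cc (hCz hc) y).symm.eq]; exact one_mem _
  exact h1 (htop ▸ mem_top x)

end Cfsg.Agent.H79
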