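import Cfsg.Agent.H79.Orb1

/-! Orbits, part 2: norm maps, generation by weight spaces, regular orbits of class-two groups. -/

set_option autoImplicit false
open Cfsg Subgroup
open scoped commutatorElement

namespace Cfsg.Agent.H79

variable {M V : Type*} [Group M] [AddCommGroup V] [DistribMulAction M V] {p : ℕ}

/-- `v ↦ ∑_{j<p} g^j v`. -/
def sm (p : ℕ) (g : M) : V →+ V := ∑ j ∈ Finset.range p, DistribSMul.toAddMonoidHom V (g ^ j)

theorem sm_apply (g : M) (v : V) : sm p g v = ∑ j ∈ Finset.range p, g ^ j • v := by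
  simp [sm, AddMonoidHom.finset_sum_apply]

theorem sm_fix {g : M} (hg : g ^ p = 1) (v : V) : g • sm p g v = sm p g v := by
  rw [sm_apply, Finset.smul_sum]
  simp only [← mul_smul, ← pow_succ']
  have h := Finset.sum_range_succ' (fun j => g ^ j • v) p
  rw [Finset.sum_range_succ, hg, pow_zero] at h
  exact (add_right_cancel h).symm

theorem sm_comm {g h : M} (hc : Commute h g) (v : V) : h • sm p g v = sm p g (h • v) := by
  simp only [sm_apply, Finset.smul_sum, ← mul_smul, (hc.pow_right _).eq]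

theorem sm_of_fix {g : M} {v : V} (h : g • v = v) : sm p g v = p • v := by
  have : ∀ j : ℕ, g ^ j • v = v := fun j => (MulAction.stabilizer M v).pow_mem h j
  simp [sm_apply, this]

theorem sm_mem {g : M} {W : AddSubgroup V} (hW : ∀ w ∈ W, g • w ∈ W) {v : V} (hv : v ∈ W) :
    sm p g v ∈ W := by
  rw [sm_apply]
  refine W.sum_mem fun j hj => ?_
  clear hj
  induction j with
  | zero => simpa using hv
  | succ j ih => rw [pow_succ', mul_smul]; exact hW _ ih

theorem exists_nsmul_eq [Finite V] {n : ℕ} (hV : ∀ v : V, n • v = 0 → v = 0) {W : AddSubgroup V}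
    {v : V} (hv : v ∈ W) : ∃ u ∈ W, n • u = v := by
  have : Function.Injective (nsmulAddMonoidHom n : W →+ W) :=
    (injective_iff_map_eq_zero _).2 fun u hu => Subtype.ext (hV u (congrArg Subtype.val hu))
  obtain ⟨u, hu⟩ := Finite.surjective_of_injective this ⟨v, hv⟩
  exact ⟨u, u.2, congrArg Subtype.val hu⟩

theorem fix_of_pow [hp : Fact p.Prime] {y : M} (hy : y ^ p = 1) {j : ℕ} (h0 : j ≠ 0) (hj : j < p)
    {H : Subgroup M} (h : y ^ j ∈ H) : y ∈ H := by
  obtain ⟨m, hm⟩ := exists_pow_eq_self_of_coprime (x := y) (n := j)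
    ((Nat.coprime_of_lt_prime h0 hj hp.out).symm.coprime_dvd_right (orderOf_dvd_of_pow_eq_one hy))
  exact hm ▸ H.pow_mem h m

theorem sm_ident [hp : Fact p.Prime] {x y : M} (hxy : Commute x y) (hy : y ^ p = 1)
    {U : AddSubgroup V} (hU : ∀ w ∈ U, y • w ∈ U) (h0 : ∀ w ∈ U, y • w = w → w = 0) {u : V}
    (hu : u ∈ U) : p • u = ∑ i ∈ Finset.range p, sm p (x * y ^ i) u := by
  have h1 : ∀ i j : ℕ, (x * y ^ i) ^ j • u = x ^ j • (y ^ j) ^ i • u := fun i j => by
    rw [(hxy.pow_right i).mul_pow, mul_smul, ← pow_mul, ← pow_mul, mul_comm]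
  simp only [sm_apply, h1]
  rw [Finset.sum_comm, Finset.sum_eq_single 0]
  · simp
  · intro j hj hj0
    rw [← Finset.smul_sum, ← sm_apply, h0 (sm p (y ^ j) u), smul_zero]
    · refine sm_mem (fun w hw => ?_) hu
      induction j with
      | zero => simpa using hw
      | succ j _ =>
        clear * - hU hw
        induction j with
        | zero => simpa using hU w hw
        | succ j ih => rw [pow_succ', mul_smul]; exact hU _ ih
    · exact fix_of_pow (H := MulAction.stabilizer M _) hy hj0 (Finset.mem_range.1 hj)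
        (sm_fix (by rw [← pow_mul, mul_comm, pow_mul, hy, one_pow]) u)
  · intro h
    exact absurd (Finset.mem_range.2 hp.out.pos) h

/-- The vectors of `W` fixed by `g`. -/
def fxs (W : AddSubgroup V) (g : M) : AddSubgroup V where
  carrier := {w | w ∈ W ∧ g • w = w}
  zero_mem' := ⟨W.zero_mem, smul_zero g⟩
  add_mem' := fun ha hb => ⟨W.add_mem ha.1 hb.1, by rw [smul_add, ha.2, hb.2]⟩
  neg_mem' := fun ha => ⟨W.neg_mem ha.1, by rw [smul_neg, ha.2]⟩

theorem card_lt_of_lt' [Finite V] {U W : AddSubgroup V} (h : U < W) : Nat.card U < Nat.card W :=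
  lt_of_le_of_ne (AddSubgroup.card_le_of_le h.le) fun e =>
    h.ne (AddSubgroup.eq_of_le_of_card_ge h.le e.ge)

/-- A group of odd prime exponent whose commutators are central and fixed-point-free has a
regular orbit modulo the kernel. -/
theorem exists_regular [Finite V] [hp : Fact p.Prime] (hp2 : p ≠ 2)
    (hV : ∀ v : V, p • v = 0 → v = 0) (Z : Subgroup M) (n : ℕ) :
    ∀ (W : AddSubgroup V) (E : Subgroup M), Nat.card W = n → (∀ x ∈ E, x ^ p = 1) →
      (∀ x ∈ E, ∀ y ∈ E, ⁅x, y⁆ ∈ Z) → (∀ x ∈ E, ∀ d ∈ Z, Commute x d) →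
      (∀ x ∈ E, ∀ w ∈ W, x • w ∈ W) → (∀ d ∈ Z, d ≠ 1 → ∀ w ∈ W, d • w = w → w = 0) →
      ∃ v ∈ W, ∀ e ∈ E, e • v = v → ∀ w ∈ W, e • w = w := by
  induction n using Nat.strong_induction_on with
  | _ n ih =>
  intro W E hn hE hEZ hc hW hZ
  have inj : ∀ a b : V, p • a = p • b → a = b := fun a b h =>
    sub_eq_zero.1 (hV _ (by rw [nsmul_sub, h, sub_self]))
  by_cases hab : ∀ x ∈ E, ∀ y ∈ E, Commute x y
  · by_cases hx : ∃ x ∈ E, fxs W x ≠ ⊥ ∧ fxs W x ≠ W
    · obtain ⟨x, hx, h1, h2⟩ := hx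
      have l1 : fxs W x < W := lt_of_le_of_ne (fun w hw => hw.1) h2
      have dis : ∀ w ∈ fxs W x, sm p x w = 0 → w = 0 := fun w hw h =>
        hV w (by rw [← sm_of_fix hw.2, h])
      have l2 : W ⊓ (sm p x).ker < W := lt_of_le_of_ne inf_le_left fun h => h1 (by
        rw [eq_bot_iff]; intro w hw
        exact dis w hw (h.ge hw.1).2)
      have i1 : ∀ e ∈ E, ∀ w ∈ fxs W x, e • w ∈ fxs W x := fun e he w hw =>
        ⟨hW e he w hw.1, by rw [← mul_smul, (hab x hx e he).eq, mul_smul, hw.2]⟩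
      have i2 : ∀ e ∈ E, ∀ w ∈ W ⊓ (sm p x).ker, e • w ∈ W ⊓ (sm p x).ker := fun e he w hw =>
        ⟨hW e he w hw.1, by
          change sm p x (e • w) = 0
          rw [← sm_comm (hab e he x hx), show sm p x w = 0 from hw.2, smul_zero]⟩
      obtain ⟨v₁, hv₁, r₁⟩ := ih _ (hn ▸ card_lt_of_lt' l1) _ E rfl hE hEZ hc i1
        fun d hd h w hw => hZ d hd h w hw.1
      obtain ⟨v₂, hv₂, r₂⟩ := ih _ (hn ▸ card_lt_of_lt' l2) _ E rfl hE hEZ hc i2
        fun d hd h w hw => hZ d hd h w hw.1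
      refine ⟨v₁ + v₂, W.add_mem hv₁.1 hv₂.1, fun e he h w hw => ?_⟩
      have e1 : e • v₁ = v₁ := by
        have := congrArg (sm p x) h
        rw [smul_add, map_add, map_add, show sm p x v₂ = 0 from hv₂.2,
          show sm p x (e • v₂) = 0 from (i2 e he _ hv₂).2, sm_of_fix hv₁.2,
          sm_of_fix (i1 e he _ hv₁).2, add_zero, add_zero] at this
        exact inj _ _ this
      have e2 : e • v₂ = v₂ := by rwa [smul_add, e1, add_right_inj] at h
      obtain ⟨u, hu, rfl⟩ := exists_nsmul_eq hV hw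
      have m1 : sm p x u ∈ fxs W x := ⟨sm_mem (hW x hx) hu, sm_fix (hE x hx) u⟩
      have m2 : p • u - sm p x u ∈ W ⊓ (sm p x).ker := ⟨W.sub_mem hw m1.1, by
        change sm p x _ = 0
        rw [map_sub, map_nsmul, sm_of_fix m1.2, sub_self]⟩
      rw [← add_sub_cancel (sm p x u) (p • u), smul_add, r₁ e he e1 _ m1, r₂ e he e2 _ m2]
    · push Not at hx
      by_cases hb : W = ⊥
      · exact ⟨0, W.zero_mem, fun e _ _ w hw => by rw [hb, AddSubgroup.mem_bot] at hw; simp [hw]⟩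
      obtain ⟨⟨v, hv⟩, hv0⟩ := AddSubgroup.ne_bot_iff_exists_ne_zero.1 hb
      refine ⟨v, hv, fun e he h w hw => ((hx e he fun h' => hv0 (Subtype.ext ?_)).ge hw).2⟩
      exact AddSubgroup.mem_bot.1 (h' ▸ (⟨hv, h⟩ : v ∈ fxs W e))
  push Not at hab
  obtain ⟨y, hy, x, hx, hne⟩ := hab
  set c := ⁅y, x⁆ with hcd
  have c1 : c ≠ 1 := fun h => hne (commutatorElement_eq_one_iff_mul_comm.1 h)
  have cZ : c ∈ Z := hEZ y hy x hx
  have cmE : ∀ a ∈ E, ∀ b ∈ E, ⁅a, b⁆ ∈ E := fun a ha b hb =>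
    E.mul_mem (E.mul_mem (E.mul_mem ha hb) (E.inv_mem ha)) (E.inv_mem hb)
  have cE : c ∈ E := cmE y hy x hx
  have mv : ∀ e ∈ E, ∀ d ∈ Z, ∀ w ∈ fxs W (x * d), e • w ∈ fxs W (x * (⁅e, x⁆ * d)) :=
    fun e he d hd w hw => ⟨hW e he w hw.1, by
      rw [← mul_smul, ← mul_assoc, (hc x hx _ (hEZ e he x hx)).eq, mul_assoc, ← (hc e he d hd).eq,
        show ⁅e, x⁆ * x * (e * d) = e * (x * d) by simp only [commutatorElement_def]; group,
        mul_smul, hw.2]⟩
  have kill : ∀ d ∈ Z, d ∈ E → ∀ d' ∈ Z, d' ∈ E → d ≠ d' → ∀ w ∈ fxs W (x * d'),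
      sm p (x * d) w = 0 := by
    intro d hd hdE d' hd' hdE' h w hw
    refine hZ (d⁻¹ * d') (Z.mul_mem (Z.inv_mem hd) hd') (fun e => h (inv_mul_eq_one.1 e)) _
      (sm_mem (hW _ (E.mul_mem hx hdE)) hw.1) ?_
    have f1 : x * d ∈ MulAction.stabilizer M (sm p (x * d) w) := sm_fix (hE _ (E.mul_mem hx hdE)) w
    have f2 : x * d' ∈ MulAction.stabilizer M (sm p (x * d) w) := by
      change (x * d') • _ = _
      rw [sm_comm ((Commute.mul_left (Commute.refl x) (hc x hx d' hd').symm).mul_right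
        (hc _ (E.mul_mem hx hdE') d hd)), hw.2]
    have := (MulAction.stabilizer M _).mul_mem ((MulAction.stabilizer M _).inv_mem f1) f2
    rwa [show (x * d)⁻¹ * (x * d') = d⁻¹ * d' by group] at this
  by_cases hb : W = ⊥
  · exact ⟨0, W.zero_mem, fun e _ _ w hw => by rw [hb, AddSubgroup.mem_bot] at hw; simp [hw]⟩
  have yi : ∀ i : ℕ, ⁅(y ^ i)⁻¹, x⁆ * c ^ i = 1 := fun i => by
    rw [← inv_pow, H3.commutator_pow_left_of_commute (hc _ (E.inv_mem hy) _
      (hEZ _ (E.inv_mem hy) x hx)), H3.commutator_inv_left_of_commute (hc y hy c cZ), inv_pow,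
      inv_mul_cancel]
  have gen : ∀ T : AddSubgroup V, (∀ i : ℕ, ∀ w ∈ fxs W (x * 1), y ^ i • w ∈ T) → W ≤ T := by
    intro T hT w hw
    obtain ⟨u, hu, rfl⟩ := exists_nsmul_eq hV hw
    rw [sm_ident (hc x hx c cZ) (hE c cE) (hW c cE) (hZ c cZ c1) hu]
    refine T.sum_mem fun i _ => ?_
    have hi : x * c ^ i ∈ E := E.mul_mem hx (E.pow_mem cE i)
    have := mv _ (E.inv_mem (E.pow_mem hy i)) _ (Z.pow_mem cZ i) _
      ⟨sm_mem (p := p) (hW _ hi) hu, sm_fix (hE _ hi) u⟩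
    rw [yi] at this
    simpa using hT i _ this
  have l1 : fxs W (x * 1) < W := lt_of_le_of_ne (fun w hw => hw.1) fun h => hb (by
    rw [eq_bot_iff]; intro w hw
    have h1 := mv y hy 1 Z.one_mem (y⁻¹ • w) (h.ge (hW _ (E.inv_mem hy) w hw))
    rw [smul_inv_smul] at h1
    have h2 := kill 1 Z.one_mem E.one_mem (c * 1) (by simpa using cZ) (by simpa using cE)
      (by simpa using c1.symm) w h1
    rw [sm_of_fix (h.ge hw).2] at h2
    exact hV w h2)
  obtain ⟨v, hv, r⟩ := ih _ (hn ▸ card_lt_of_lt' l1) (fxs W (x * 1)) (E ⊓ centralizer {x}) rfl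
    (fun a ha => hE a ha.1) (fun a ha b hb => hEZ a ha.1 b hb.1) (fun a ha => hc a ha.1)
    (fun a ha w hw => ⟨hW a ha.1 w hw.1, by
      rw [← mul_smul, mul_one, ← mem_centralizer_singleton_iff.1 ha.2, mul_smul]
      exact congrArg _ (by simpa using hw.2)⟩) fun d hd h w hw => hZ d hd h w hw.1
  have v0 : v ≠ 0 := fun h => hb (by
    rw [eq_bot_iff]
    refine gen ⊥ fun i w hw => ?_
    rw [hZ c cZ c1 w hw.1 (r c ⟨cE, mem_centralizer_singleton_iff.2 (hc x hx c cZ).symm.eq⟩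
      (by rw [h, smul_zero]) w hw), smul_zero]
    exact AddSubgroup.zero_mem _)
  have hyv := mv y hy 1 Z.one_mem v hv
  refine ⟨v + y • v, W.add_mem hv.1 hyv.1, fun e he h => ?_⟩
  set f := ⁅e, x⁆ with hf
  have fZ : f ∈ Z := hEZ e he x hx
  have fE : f ∈ E := cmE e he x hx
  have a1 := mv e he 1 Z.one_mem v hv
  have a2 := mv e he _ (Z.mul_mem cZ Z.one_mem) _ hyv
  simp only [mul_one, ← hf, ← hcd] at a1 a2 hyv
  have p0 := congrArg (sm p (x * 1)) h
  have p1 := congrArg (sm p (x * c)) h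
  rw [smul_add, map_add, map_add] at p0 p1
  rw [sm_of_fix hv.2, kill 1 Z.one_mem E.one_mem c cZ cE c1.symm _ hyv, add_zero] at p0
  rw [sm_of_fix hyv.2, kill c cZ cE 1 Z.one_mem E.one_mem c1 _ hv, zero_add] at p1
  have f1 : f = 1 := by
    by_contra f1
    have g1 : 1 = f * c := by
      by_contra g1
      rw [kill 1 Z.one_mem E.one_mem f fZ fE (Ne.symm f1) _ a1,
        kill 1 Z.one_mem E.one_mem _ (Z.mul_mem fZ cZ) (E.mul_mem fE cE) g1 _ a2, add_zero] at p0
      exact v0 (hV v p0.symm)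
    have g2 : c = f := by
      by_contra g2
      rw [kill c cZ cE f fZ fE g2 _ a1, kill c cZ cE _ (Z.mul_mem fZ cZ) (E.mul_mem fE cE)
        (fun e => f1 (by simpa using e)) _ a2, add_zero] at p1
      exact v0 ((smul_eq_zero_iff_eq y).1 (hV _ p1.symm))
    rw [← g2, ← pow_two] at g1
    exact c1 (mem_bot.1 (fix_of_pow (hE c cE) two_ne_zero
      (lt_of_le_of_ne hp.out.two_le hp2.symm) (mem_bot.2 g1.symm)))
  rw [f1, one_mul] at a2
  rw [f1] at a1
  rw [sm_of_fix a1.2, kill 1 Z.one_mem E.one_mem c cZ cE c1.symm _ a2, add_zero] at p0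
  have e1 := inj _ _ p0
  have e2 : e • y • v = y • v := by rwa [smul_add, e1, add_right_inj] at h
  have ey : Commute e y := by
    by_contra hn'
    refine v0 (hZ ⁅e⁻¹, y⁻¹⁆ (hEZ _ (E.inv_mem he) _ (E.inv_mem hy)) (fun h' => hn' ?_) v hv.1 ?_)
    · exact Commute.inv_inv_iff.1 (commutatorElement_eq_one_iff_mul_comm.1 h')
    · simp only [commutatorElement_def, inv_inv, mul_smul, e2, inv_smul_smul]
      rw [inv_smul_eq_iff, e1]
  have hr := r e ⟨he, mem_centralizer_singleton_iff.2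
    (commutatorElement_eq_one_iff_mul_comm.1 f1)⟩ e1
  intro w hw
  exact (gen (fxs ⊤ e) (fun i u hu => ⟨trivial, by
    rw [← mul_smul, (ey.pow_right i).eq, mul_smul, hr u hu]⟩) hw).2

end Cfsg.Agent.H79
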