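import Cfsg.Agent.H79.Orb2

/-! Orbits, part 3: a vector fixed by no conjugate of an element of a normal `p`-subgroup. -/

set_option autoImplicit false
open Cfsg Subgroup
open scoped commutatorElement Pointwise

namespace Cfsg.Agent.H79

universe v

section
variable {M V : Type*} [Group M] [Finite M] [AddCommGroup V] [DistribMulAction M V] {p : ℕ}

/-- The norm map of a subgroup. -/
noncomputable def nrm (H : Subgroup M) : V →+ V :=
  haveI := Fintype.ofFinite H
  ∑ h : H, DistribSMul.toAddMonoidHom V (h : M)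

theorem nrm_apply (H : Subgroup M) [Fintype H] (v : V) : nrm H v = ∑ h : H, (h : M) • v := by
  simp only [nrm, AddMonoidHom.finset_sum_apply, DistribSMul.toAddMonoidHom_apply]
  congr!

theorem nrm_fix {H : Subgroup M} {g : M} (hg : g ∈ H) (v : V) : g • nrm H v = nrm H v := by
  haveI := Fintype.ofFinite H
  rw [nrm_apply, Finset.smul_sum]
  exact Fintype.sum_equiv (Equiv.mulLeft (⟨g, hg⟩ : H)) _ _ fun h => by simp [mul_smul]

theorem nrm_comm {H : Subgroup M} {g : M} (hg : g ∈ normalizer (H : Set M)) (v : V) :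
    g • nrm H v = nrm H (g • v) := by
  haveI := Fintype.ofFinite H
  rw [nrm_apply, nrm_apply, Finset.smul_sum]
  refine Fintype.sum_bijective (fun h : H => (⟨g * h * g⁻¹, (mem_normalizer_iff.1 hg h).1 h.2⟩ : H))
    (Finite.injective_iff_bijective.1 fun a b e => Subtype.ext (by
      simpa using congrArg Subtype.val e)) _ _ fun h => by simp [mul_smul]

theorem nrm_of_fix {H : Subgroup M} {v : V} (h : ∀ g ∈ H, g • v = v) :
    nrm H v = Nat.card H • v := by
  haveI := Fintype.ofFinite H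
  rw [nrm_apply, Finset.sum_congr rfl fun (g : H) _ => h g g.2]
  simp

theorem nrm_mem {H : Subgroup M} {W : AddSubgroup V} (hW : ∀ g ∈ H, ∀ w ∈ W, g • w ∈ W) {v : V}
    (hv : v ∈ W) : nrm H v ∈ W := by
  haveI := Fintype.ofFinite H
  rw [nrm_apply]
  exact W.sum_mem fun h _ => hW h h.2 v hv

theorem card_smul_eq_zero [Fact p.Prime] (hV : ∀ v : V, p • v = 0 → v = 0) {H : Subgroup M}
    (hH : IsPGroup p H) (v : V) (h : Nat.card H • v = 0) : v = 0 := by
  obtain ⟨k, hk⟩ := hH.exists_card_eq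
  rw [hk] at h
  clear hk
  induction k with
  | zero => simpa using h
  | succ k ih => exact ih (hV _ (by rwa [pow_succ', mul_smul] at h))

/-- The vectors fixed by a subgroup. -/
def fxS (V : Type*) [AddCommGroup V] [DistribMulAction M V] (H : Subgroup M) : AddSubgroup V where
  carrier := {w | ∀ g ∈ H, g • w = w}
  zero_mem' := fun g _ => smul_zero g
  add_mem' := fun ha hb g hg => by rw [smul_add, ha g hg, hb g hg]
  neg_mem' := fun ha g hg => by rw [smul_neg, ha g hg]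

omit [Finite M] in
theorem smul_mem_fxS {H : Subgroup M} {w : V} (hw : w ∈ fxS V H) (g : M) :
    g • w ∈ fxS V (MulAut.conj g • H) := by
  rintro _ ⟨h, hh, rfl⟩
  change (g * h * g⁻¹) • g • w = _
  rw [mul_smul, mul_smul, inv_smul_smul, hw h hh]

theorem split [Finite V] [Fact p.Prime] (hV : ∀ v : V, p • v = 0 → v = 0) {H : Subgroup M}
    (hH : IsPGroup p H) {W : AddSubgroup V} (hW : ∀ g ∈ H, ∀ w ∈ W, g • w ∈ W) {w : V}
    (hw : w ∈ W) : ∃ a ∈ W ⊓ fxS V H, ∃ b ∈ W ⊓ (nrm H).ker, w = a + b := by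
  obtain ⟨u, hu, rfl⟩ := exists_nsmul_eq (card_smul_eq_zero hV hH) hw
  refine ⟨nrm H u, ⟨nrm_mem hW hu, fun g hg => nrm_fix hg u⟩, Nat.card H • u - nrm H u,
    ⟨W.sub_mem hw (nrm_mem hW hu), ?_⟩, by abel⟩
  change nrm H _ = 0
  rw [map_sub, map_nsmul, nrm_of_fix (fun g hg => nrm_fix hg u), sub_self]

/-- Generation by the fixed spaces of hyperplanes. -/
theorem gen_hyper [Finite V] [hp : Fact p.Prime] (hV : ∀ v : V, p • v = 0 → v = 0) {B : Subgroup M}
    (hB : IsElementaryAbelian p B) (h0 : fxS V B = ⊥) {T : AddSubgroup V}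
    (hT : ∀ H, H ⋖ B → fxS V H ≤ T) (n : ℕ) :
    ∀ W : AddSubgroup V, Nat.card W = n → (∀ g ∈ B, ∀ w ∈ W, g • w ∈ W) → W ≤ T := by
  have cm : ∀ x ∈ B, ∀ y ∈ B, Commute x y := fun x hx y hy =>
    congrArg Subtype.val (hB.1.is_comm.comm (⟨x, hx⟩ : B) ⟨y, hy⟩)
  induction n using Nat.strong_induction_on with
  | _ n ih =>
  intro W hn hW
  by_cases hb : W = ⊥
  · rw [hb]; exact bot_le
  obtain ⟨H, -, ⟨hHB, hH⟩, hmax⟩ := exists_maximal_ge_of_wellFoundedGT
    (fun H : Subgroup M => H ≤ B ∧ W ⊓ fxS V H ≠ ⊥) ⊥ ⟨bot_le, by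
      rwa [inf_eq_left.2 fun w _ g hg => by rw [mem_bot.1 hg, one_smul]]⟩
  have hHp : IsPGroup p H := fun x => ⟨1, Subtype.ext (by simpa using hB.2 x (hHB x.2))⟩
  have iU : ∀ g ∈ B, ∀ w ∈ W ⊓ fxS V H, g • w ∈ W ⊓ fxS V H := fun g hg w hw =>
    ⟨hW g hg w hw.1, fun h hh => by rw [← mul_smul, (cm h (hHB hh) g hg).eq, mul_smul, hw.2 h hh]⟩
  have fpf : ∀ g ∈ B, g ∉ H → ∀ w ∈ W ⊓ fxS V H, g • w = w → w = 0 := by
    intro g hg hgH w hw h
    by_contra w0
    refine hgH (hmax (y := H ⊔ zpowers g) ⟨sup_le hHB (zpowers_le.2 hg), fun e => w0 ?_⟩ le_sup_left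
      (mem_sup_right (mem_zpowers g)))
    refine AddSubgroup.mem_bot.1 (e.le ⟨hw.1, ?_⟩)
    exact sup_le (b := zpowers g) (c := MulAction.stabilizer M w) hw.2 (zpowers_le.2 h)
  have hcov : H ⋖ B := by
    refine ⟨lt_of_le_of_ne hHB fun e => hH (by rw [e, h0, inf_bot_eq]), fun K h1 h2 => hH ?_⟩
    obtain ⟨y, hy, hyH⟩ := SetLike.exists_of_lt h1
    obtain ⟨x, hx, hxK⟩ := SetLike.exists_of_lt h2
    rw [eq_bot_iff]
    intro u hu
    refine hV u ?_
    rw [sm_ident (cm x hx y (h2.le hy)) (hB.2 y (h2.le hy)) (iU y (h2.le hy))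
      (fpf y (h2.le hy) hyH) hu]
    refine Finset.sum_eq_zero fun i _ => ?_
    have hi : x * y ^ i ∈ B := B.mul_mem hx (B.pow_mem (h2.le hy) i)
    exact fpf _ hi (fun h => hxK ((K.mul_mem_cancel_right (K.pow_mem hy i)).1 (h1.le h))) _
      (sm_mem (iU _ hi) hu) (sm_fix (hB.2 _ hi) u)
  have l2 : W ⊓ (nrm H).ker < W := lt_of_le_of_ne inf_le_left fun e => hH (by
    rw [eq_bot_iff]; intro w hw
    exact card_smul_eq_zero hV hHp w (by rw [← nrm_of_fix hw.2]; exact (e.ge hw.1).2))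
  have h2 := ih _ (hn ▸ card_lt_of_lt' l2) (W ⊓ (nrm H).ker) rfl fun g hg w hw => ⟨hW g hg w hw.1, by
    change nrm H (g • w) = 0
    rw [← nrm_comm (centralizer_le_normalizer _ fun h hh => cm h (hHB hh) g hg),
      show nrm H w = 0 from hw.2, smul_zero]⟩
  intro w hw
  obtain ⟨a, ha, b, hb', rfl⟩ := split hV hHp (fun g hg => hW g (hHB hg)) hw
  exact T.add_mem (hT H hcov ha.2) (h2 hb')

theorem nrm_hyper {B H H' : Subgroup M} (hB : IsElementaryAbelian p B) (h0 : fxS V B = ⊥)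
    (hH : H ⋖ B) (hH' : H' ⋖ B) (hne : H ≠ H') {w : V} (hw : w ∈ fxS V H') : nrm H w = 0 := by
  refine AddSubgroup.mem_bot.1 (h0.le ?_)
  have : H ⊔ H' ≤ MulAction.stabilizer M (nrm H w) := sup_le (fun g hg => nrm_fix hg w) fun g hg => by
    change g • _ = _
    rw [nrm_comm (centralizer_le_normalizer _ fun h hh =>
      congrArg Subtype.val (hB.1.is_comm.comm (⟨h, hH.le hh⟩ : B) ⟨g, hH'.le hg⟩)), hw g hg]
  have e : H ⊔ H' = B := by
    by_contra e
    have l := lt_of_le_of_ne (sup_le hH.le hH'.le) e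
    have e1 : H = H ⊔ H' := by
      by_contra e1
      exact hH.2 (lt_of_le_of_ne le_sup_left e1) l
    have e2 : H' = H ⊔ H' := by
      by_contra e2
      exact hH'.2 (lt_of_le_of_ne le_sup_right e2) l
    exact hne (e1.trans e2.symm)
  rw [e] at this
  exact fun g hg => this hg

theorem nrm_sum {B : Subgroup M} (hB : IsElementaryAbelian p B) (h0 : fxS V B = ⊥)
    {ι : Type*} (s : Finset ι) (τ : ι → Subgroup M) (f : ι → V) (hτ : ∀ i ∈ s, τ i ⋖ B)
    (hf : ∀ i ∈ s, f i ∈ fxS V (τ i)) {i : ι} (hi : i ∈ s) (hinj : ∀ j ∈ s, τ j = τ i → j = i) :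
    nrm (τ i) (∑ j ∈ s, f j) = Nat.card (τ i) • f i := by
  rw [map_sum, Finset.sum_eq_single_of_mem i hi fun j hj hne =>
    nrm_hyper hB h0 (hτ i hi) (hτ j hj) (fun e => hne (hinj j hj e.symm)) (hf j hj), nrm_of_fix (hf i hi)]

/-- Restriction of the action to an invariant subgroup. -/
@[reducible] def resAct (N : Subgroup M) (W : AddSubgroup V) (h : ∀ g ∈ N, ∀ w ∈ W, g • w ∈ W) :
    DistribMulAction N W where
  smul g w := ⟨(g : M) • (w : V), h g g.2 w w.2⟩
  one_smul w := Subtype.ext (one_smul M (w : V))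
  mul_smul a b w := Subtype.ext (mul_smul (a : M) (b : M) (w : V))
  smul_zero g := Subtype.ext (smul_zero (g : M))
  smul_add g a b := Subtype.ext (smul_add (g : M) (a : V) (b : V))

/-- The faithful action of the image. -/
@[reducible] def rangeAct (M V : Type*) [Group M] [AddCommGroup V] [DistribMulAction M V] :
    DistribMulAction (MulAction.toPermHom M V).range V where
  smul g v := (g : Equiv.Perm V) v
  one_smul _ := rfl
  mul_smul _ _ _ := rfl
  smul_zero := by rintro ⟨_, g, rfl⟩; exact smul_zero g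
  smul_add := by rintro ⟨_, g, rfl⟩ a b; exact smul_add g a b

end

/-- The orbit property for the module `V`. -/
def XP (p : ℕ) (V : Type v) [AddCommGroup V] : Prop :=
  ∀ (M : Type v) [Group M] [Finite M] [DistribMulAction M V] (P : Subgroup M), P.Normal →
    IsPGroup p P → ∀ a ∈ P, (∃ v : V, a • v ≠ v) → ∃ v : V, ∀ g : M, (g * a * g⁻¹) • v ≠ v

theorem XP.sub {p : ℕ} {M V : Type v} [Group M] [Finite M] [AddCommGroup V] [DistribMulAction M V]
    {W : AddSubgroup V} (hX : XP p W) (N : Subgroup M) (h : ∀ g ∈ N, ∀ w ∈ W, g • w ∈ W)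
    {P : Subgroup M} (hn : P.Normal) (hP : IsPGroup p P) {a : M} (ha : a ∈ P) (haN : a ∈ N)
    (hw : ∃ w ∈ W, a • w ≠ w) : ∃ w ∈ W, ∀ g ∈ N, (g * a * g⁻¹) • w ≠ w := by
  letI := resAct N W h
  obtain ⟨w, hw, hne⟩ := hw
  obtain ⟨v, hv⟩ := hX N (P.subgroupOf N) inferInstance (hP.comap_subtype) ⟨a, haN⟩ ha
    ⟨⟨w, hw⟩, fun e => hne (congrArg Subtype.val e)⟩
  exact ⟨v, v.2, fun g hg e => hv ⟨g, hg⟩ (Subtype.ext e)⟩

theorem xp_of_faithful {p : ℕ} [hp : Fact p.Prime] {V : Type v} [AddCommGroup V] [Finite V]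
    (h : ∀ (M : Type v) [Group M] [Finite M] [DistribMulAction M V] (P : Subgroup M), P.Normal →
      IsPGroup p P → (∀ g : M, (∀ v : V, g • v = v) → g = 1) → ∀ a ∈ P, a ^ p = 1 → a ≠ 1 →
      ∃ v : V, ∀ g : M, (g * a * g⁻¹) • v ≠ v) : XP p V := by
  intro M _ _ _ P hn hP a ha ⟨w, hw⟩
  letI := rangeAct M V
  set φ := (MulAction.toPermHom M V).rangeRestrict
  have hφ : ∀ (g : M) (v : V), φ g • v = g • v := fun _ _ => rfl
  have a1 : φ a ≠ 1 := fun e => hw (by rw [← hφ, e, one_smul])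
  obtain ⟨k, hk⟩ := (IsPGroup.iff_orderOf.1 (hP.map φ)) ⟨φ a, a, ha, rfl⟩
  rw [← orderOf_coe] at hk
  cases k with
  | zero => exact absurd (orderOf_eq_one_iff.1 (by simpa using hk)) a1
  | succ k =>
  obtain ⟨v, hv⟩ := h _ (P.map φ) (hn.map φ (MulAction.toPermHom M V).rangeRestrict_surjective)
    (hP.map φ) (fun g hg => Subtype.ext (Equiv.ext hg)) (φ a ^ p ^ k) (pow_mem (mem_map_of_mem φ ha) _)
    (by rw [← pow_mul, ← pow_succ, ← hk]; exact pow_orderOf_eq_one _) (fun e => by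
      have := Nat.le_of_dvd (pow_pos hp.out.pos k) (hk ▸ orderOf_dvd_of_pow_eq_one e)
      exact absurd (Nat.pow_lt_pow_right hp.out.one_lt k.lt_succ_self) (not_lt.2 this))
  refine ⟨v, fun g e => hv (φ g) ?_⟩
  rw [← conj_pow, ← map_inv, ← map_mul, ← map_mul]
  exact (MulAction.stabilizer (MulAction.toPermHom M V).range v).pow_mem
    (x := φ (g * a * g⁻¹)) e _

end Cfsg.Agent.H79
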