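import Cfsg.Agent.H79.Orb3

/-! Orbits, part 4: the main theorem. -/

set_option autoImplicit false
open Cfsg Subgroup
open scoped commutatorElement Pointwise

namespace Cfsg.Agent.H79

universe v

variable {p : ℕ} [hp : Fact p.Prime] {M V : Type v} [Group M] [Finite M] [AddCommGroup V]
  [Finite V] [DistribMulAction M V]

theorem xp_blocks (hV : ∀ v : V, p • v = 0 → v = 0) (ih : ∀ W : AddSubgroup V, W ≠ ⊤ → XP p W)
    {P : Subgroup M} (hn : P.Normal) (hP : IsPGroup p P)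
    (hf : ∀ g : M, (∀ v : V, g • v = v) → g = 1) {a : M} (ha : a ∈ P) (a1 : a ≠ 1)
    {B : Subgroup M} (hBn : B.Normal) (hB : IsElementaryAbelian p B) (hc : p < Nat.card B)
    (h0 : fxS V B = ⊥) : ∃ v : V, ∀ g : M, (g * a * g⁻¹) • v ≠ v := by
  classical
  letI : MulAction M (Subgroup M) := MulAction.compHom _ (MulAut.conj : M →* MulAut M)
  have act : ∀ (g : M) (H : Subgroup M), g • H = MulAut.conj g • H := fun _ _ => rfl
  have mono : ∀ (g : M) {H K : Subgroup M}, g • H < g • K ↔ H < K := fun g H K => by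
    simp only [lt_iff_le_not_ge, act, pointwise_smul_le_pointwise_smul_iff]
  have gB : ∀ g : M, g • B = B := fun g => hBn.conj_smul_eq_self g
  set S : Set (Subgroup M) := {H | H ⋖ B ∧ fxS V H ≠ ⊥} with hS
  have mem : ∀ {H : Subgroup M} {w : V}, w ∈ fxS V H → ∀ g : M, g • w ∈ fxS V (g • H) :=
    fun hw g => smul_mem_fxS hw g
  have iS : ∀ g : M, ∀ H ∈ S, g • H ∈ S := by
    intro g H hH
    refine ⟨⟨by rw [← gB g, mono]; exact hH.1.1, fun K h1 h2 => ?_⟩, fun e => hH.2 ?_⟩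
    · rw [← smul_inv_smul g K] at h1 h2
      rw [← gB g] at h2
      exact hH.1.2 ((mono g).1 h1) ((mono g).1 h2)
    · rw [eq_bot_iff]; intro w hw
      exact (smul_eq_zero_iff_eq g).1 (AddSubgroup.mem_bot.1 (e.le (mem hw g)))
  have pH : ∀ H ∈ S, IsPGroup p H := fun H hH x => ⟨1, Subtype.ext (by simpa using hB.2 x (hH.1.le x.2))⟩
  by_cases hm : ∃ H ∈ S, a⁻¹ • H ≠ H
  · obtain ⟨H₀, h₀, hm⟩ := hm
    obtain ⟨Δ, hΔ, h⟩ := exists_set_moved hP (P.inv_mem ha) iS h₀ hm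
    have ex : ∀ H : Subgroup M, ∃ w : V, H ∈ S → w ∈ fxS V H ∧ w ≠ 0 := fun H => by
      by_cases hH : H ∈ S
      · obtain ⟨⟨w, hw⟩, w0⟩ := AddSubgroup.ne_bot_iff_exists_ne_zero.1 hH.2
        exact ⟨w, fun _ => ⟨hw, fun e => w0 (Subtype.ext e)⟩⟩
      · exact ⟨0, fun h => absurd h hH⟩
    choose f hf' using ex
    have ms : ∀ H, H ∈ (Set.toFinite Δ).toFinset ↔ H ∈ Δ := fun H => Set.Finite.mem_toFinset _
    refine ⟨∑ H ∈ (Set.toFinite Δ).toFinset, f H, fun g e => ?_⟩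
    obtain ⟨H, hH, hH'⟩ := h g
    have e1 := nrm_sum hB h0 (Set.toFinite Δ).toFinset id f (fun K hK => (hΔ ((ms K).1 hK)).1)
      (fun K hK => (hf' K (hΔ ((ms K).1 hK))).1) ((ms H).2 hH) fun _ _ e => e
    rw [← e, Finset.smul_sum, map_sum, Finset.sum_eq_zero] at e1
    · exact (hf' H (hΔ hH)).2 (card_smul_eq_zero hV (pH H (hΔ hH)) _ e1.symm)
    · intro K hK
      have hK' := hΔ ((ms K).1 hK)
      refine nrm_hyper hB h0 (hΔ hH).1 (iS _ K hK').1 (fun e' => hH' ?_) (mem (hf' K hK').1 _)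
      rw [show H = (g * a * g⁻¹) • K from e', ← mul_smul,
        show g * a⁻¹ * g⁻¹ * (g * a * g⁻¹) = 1 by group, one_smul]
      exact (ms K).1 hK
  push Not at hm
  have ha' : ∀ H ∈ S, a • H = H := fun H hH => by
    conv_lhs => rw [← hm H hH, smul_inv_smul]
  obtain ⟨H₁, h₁, w, hw, hne⟩ : ∃ H, H ⋖ B ∧ ∃ w ∈ fxS V H, a • w ≠ w := by
    by_contra hc'
    push Not at hc'
    refine a1 (hf a fun v => ?_)
    exact (gen_hyper hV hB h0 (T := fxs ⊤ a) (fun H hH w hw => ⟨trivial, hc' H hH w hw⟩) _ ⊤ rfl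
      (fun _ _ _ _ => trivial) (AddSubgroup.mem_top v)).2
  have s₁ : H₁ ∈ S := ⟨h₁, fun e => hne (by rw [AddSubgroup.mem_bot.1 (e.le hw), smul_zero])⟩
  have nt : fxS V H₁ ≠ ⊤ := fun e => by
    have hb : H₁ = ⊥ := eq_bot_iff.2 fun g hg => hf g fun v => e.ge (AddSubgroup.mem_top v) g hg
    rw [hb] at h₁
    obtain ⟨⟨x, hx⟩, x1⟩ := ne_bot_iff_exists_ne_one.1 h₁.ne'
    have x1' : x ≠ 1 := fun e => x1 (Subtype.ext e)
    have : zpowers x = B := by
      by_contra e'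
      exact h₁.2 (bot_lt_iff_ne_bot.2 (zpowers_ne_bot.2 x1')) (lt_of_le_of_ne (zpowers_le.2 hx) e')
    rw [← this, Nat.card_zpowers, orderOf_eq_prime (hB.2 x hx) x1'] at hc
    exact lt_irrefl _ hc
  obtain ⟨v₁, hv₁, r⟩ := (ih _ nt).sub (MulAction.stabilizer M H₁) (fun g hg w hw => by
    have := mem hw g
    rwa [show g • H₁ = H₁ from hg] at this) hn hP ha (ha' H₁ s₁) ⟨w, hw, hne⟩
  have ex : ∀ H : Subgroup M, ∃ t : M, H ∈ MulAction.orbit M H₁ → t • H₁ = H := fun H => by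
    by_cases hH : H ∈ MulAction.orbit M H₁
    · obtain ⟨t, ht⟩ := hH
      exact ⟨t, fun _ => ht⟩
    · exact ⟨1, fun h => absurd h hH⟩
  choose t ht using ex
  set s := (Set.toFinite (MulAction.orbit M H₁)).toFinset
  have ms : ∀ H, H ∈ s ↔ H ∈ MulAction.orbit M H₁ := fun H => Set.Finite.mem_toFinset _
  have sS : ∀ H ∈ s, H ∈ S := fun H hH => ht H ((ms H).1 hH) ▸ iS _ _ s₁
  have fm : ∀ H ∈ s, t H • v₁ ∈ fxS V H := fun H hH => by
    have := mem hv₁ (t H)
    rwa [ht H ((ms H).1 hH)] at this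
  refine ⟨∑ H ∈ s, t H • v₁, fun g e => ?_⟩
  have hg : g • H₁ ∈ s := (ms _).2 ⟨g, rfl⟩
  have e1 := nrm_sum hB h0 s id _ (fun K hK => (sS K hK).1) fm hg fun _ _ e => e
  have e2 := nrm_sum hB h0 s id (fun H => (g * a * g⁻¹) • t H • v₁) (fun K hK => (sS K hK).1)
    (fun K hK => by
      have := mem (fm K hK) (g * a * g⁻¹)
      rwa [show (g * a * g⁻¹) • K = K by
        rw [mul_smul, mul_smul, ha' _ (iS _ _ (sS K hK)), smul_inv_smul]] at this) hg fun _ _ e => e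
  rw [← Finset.smul_sum, e, e1] at e2
  have e3 := sub_eq_zero.1 (card_smul_eq_zero hV (pH _ (sS _ hg)) _
    (by rw [nsmul_sub]; exact sub_eq_zero.2 e2))
  refine r ((t (g • H₁))⁻¹ * g) ?_ ?_
  · change _ • H₁ = H₁
    rw [mul_smul, inv_smul_eq_iff, ht _ ⟨g, rfl⟩]
  · rw [show (t (g • H₁))⁻¹ * g * a * ((t (g • H₁))⁻¹ * g)⁻¹ =
      (t (g • H₁))⁻¹ * (g * a * g⁻¹) * t (g • H₁) by group, mul_smul, mul_smul, ← e3, inv_smul_smul]

theorem xp_step (hp2 : p ≠ 2) (hV : ∀ v : V, p • v = 0 → v = 0)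
    (ih : ∀ W : AddSubgroup V, W ≠ ⊤ → XP p W) {P : Subgroup M} (hn : P.Normal) (hP : IsPGroup p P)
    (hf : ∀ g : M, (∀ v : V, g • v = v) → g = 1) {a : M} (ha : a ∈ P) (hap : a ^ p = 1)
    (a1 : a ≠ 1) : ∃ v : V, ∀ g : M, (g * a * g⁻¹) • v ≠ v := by
  by_cases hA : ∃ H : Subgroup M, H.Normal ∧ IsPGroup p H ∧ H ≠ ⊥ ∧ fxS V H ≠ ⊥
  · obtain ⟨H, hHn, hH, h1, h2⟩ := hA
    have key : ∀ W : AddSubgroup V, W ≠ ⊤ → (∀ g : M, ∀ w ∈ W, g • w ∈ W) → (∃ w ∈ W, a • w ≠ w) →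
        ∃ v : V, ∀ g : M, (g * a * g⁻¹) • v ≠ v := fun W hW hi hw => by
      obtain ⟨v, -, hv⟩ := (ih W hW).sub ⊤ (fun g _ => hi g) hn hP ha trivial hw
      exact ⟨v, fun g => hv g trivial⟩
    by_cases c1 : ∃ w ∈ fxS V H, a • w ≠ w
    · refine key _ (fun e => h1 ?_) (fun g w hw => ?_) c1
      · exact eq_bot_iff.2 fun g hg => hf g fun v => e.ge (AddSubgroup.mem_top v) g hg
      · have := smul_mem_fxS hw g
        rwa [hHn.conj_smul_eq_self g] at this
    refine key (nrm H).ker (fun e => h2 ?_) (fun g w hw => ?_) ?_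
    · rw [eq_bot_iff]; intro w hw
      exact card_smul_eq_zero hV hH w (by rw [← nrm_of_fix hw]; exact e.ge (AddSubgroup.mem_top w))
    · change nrm H (g • w) = 0
      rw [← nrm_comm (by rw [normalizer_eq_top]; trivial), show nrm H w = 0 from hw, smul_zero]
    · by_contra c2
      push Not at c1 c2
      refine a1 (hf a fun v => ?_)
      obtain ⟨x, hx, y, hy, rfl⟩ := split hV hH (W := ⊤) (fun _ _ _ _ => trivial) (AddSubgroup.mem_top v)
      rw [smul_add, c1 x hx.2, c2 y hy.2]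
  push Not at hA
  by_cases hB : ∃ B : Subgroup M, B.Normal ∧ IsElementaryAbelian p B ∧ p < Nat.card B
  · obtain ⟨B, h1, h2, h3⟩ := hB
    refine xp_blocks hV ih hn hP hf ha a1 h1 h2 h3 (hA B h1
      (fun x => ⟨1, Subtype.ext (by simpa using h2.2 x x.2)⟩) fun e => ?_)
    rw [e, card_bot] at h3
    exact absurd hp.out.one_lt (not_lt.2 h3.le)
  push Not at hB
  haveI : Nontrivial P := ⟨⟨⟨a, ha⟩, 1, fun e => a1 (congrArg Subtype.val e)⟩⟩
  obtain ⟨z, hz, hzc, hch, E, hE, hEz⟩ := symp_odd hp2 hP fun B hBc hBe => by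
    rw [← card_subtype]
    refine hB _ inferInstance ⟨?_, ?_⟩
    · haveI := hBe.1
      infer_instance
    · rintro _ ⟨x, hx, rfl⟩
      rw [← map_pow, hBe.2 x hx, map_one]
  have hZ : (zpowers z).map P.subtype = zpowers (z : M) := MonoidHom.map_zpowers _ _
  have hZn : (zpowers (z : M)).Normal := hZ ▸ inferInstance
  have hzo : orderOf (z : M) = p := by rw [orderOf_coe, hz]
  have z0 := hA _ hZn (IsPGroup.of_card (n := 1) (by rw [Nat.card_zpowers, hzo, pow_one]))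
    (zpowers_ne_bot.2 fun e => hp.out.ne_one (by rw [← hzo, e, orderOf_one]))
  obtain ⟨v, -, hv⟩ := exists_regular hp2 hV (zpowers (z : M)) _ ⊤ (E.map P.subtype) rfl
    (by rintro _ ⟨x, hx, rfl⟩; rw [← map_pow, (hE x).1 hx, map_one])
    (by
      rintro _ ⟨x, hx, rfl⟩ _ ⟨y, -, rfl⟩
      rw [← map_commutatorElement, ← hZ]
      exact mem_map_of_mem _ (hEz x hx y))
    (by
      rintro _ ⟨x, -, rfl⟩ _ ⟨k, rfl⟩
      exact Commute.zpow_right (congrArg Subtype.val (mem_center_iff.1 hzc x)) k)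
    (fun _ _ _ _ => trivial) (fun d hd d1 w _ hw => by
      refine AddSubgroup.mem_bot.1 (z0.le ?_)
      have e : zpowers d = zpowers (z : M) := eq_of_le_of_card_ge (zpowers_le.2 hd) (by
        obtain ⟨k, rfl⟩ := hd
        rw [Nat.card_zpowers, Nat.card_zpowers, hzo, orderOf_eq_prime (p := p) _ d1]
        change ((z : M) ^ k) ^ p = 1
        rw [← zpow_natCast, ← zpow_mul, mul_comm, zpow_mul, zpow_natCast, ← hzo, pow_orderOf_eq_one,
          one_zpow])
      rw [← e]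
      exact fun g hg => (zpowers_le (H := MulAction.stabilizer M w)).2 hw hg)
  refine ⟨v, fun g e => a1 ?_⟩
  have := hf _ fun w => hv _ ⟨⟨_, hn.conj_mem a ha g⟩, (hE _).2 (Subtype.ext (by
    change (g * a * g⁻¹) ^ p = 1
    rw [conj_pow, hap]; group)), rfl⟩ e w trivial
  simpa using this

omit [Group M] [Finite M] [DistribMulAction M V] in
/-- For odd `p`, an element of a normal `p`-subgroup acting non-trivially on a finite abelian
`p'`-group has all its conjugates moving a common vector. -/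
theorem xp (hp2 : p ≠ 2) (hV : ∀ v : V, p • v = 0 → v = 0) : XP p V := by
  induction hn : Nat.card V using Nat.strong_induction_on generalizing V with
  | _ n ih =>
  refine xp_of_faithful fun M _ _ _ P h1 h2 hf a ha hap a1 => xp_step hp2 hV (fun W hW => ?_) h1 h2
    hf ha hap a1
  refine ih _ ?_ (fun v hv => Subtype.ext (hV v (congrArg Subtype.val hv))) rfl
  rw [← hn, ← AddSubgroup.card_top (G := V)]
  exact card_lt_of_lt' (lt_top_iff_ne_top.2 hW)

end Cfsg.Agent.H79
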