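import Cfsg.Agent.H79.DLen

/-!
Subadditivity of the `p`-length.
-/

namespace Cfsg.Agent.H79

open Subgroup H49

variable {G G' : Type*} [Group G] [Group G'] [Finite G] [Finite G'] {p : ℕ} [hp : Fact p.Prime]

omit hp in
theorem map_pPrimeCore_le_of_normal (f : G →* G') [f.range.Normal] :
    (pPrimeCore p G).map f ≤ pPrimeCore p G' := by
  rw [← f.subtype_comp_rangeRestrict, ← Subgroup.map_map]
  exact (map_mono (H22.map_pPrimeCore_le_of_surjective _ f.rangeRestrict_surjective)).trans
    ((H22.map_pPrimeCore_of_normal _).le.trans inf_le_left)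

omit hp [Finite G] [Finite G'] in
theorem map_pCore_le_of_normal (f : G →* G') [f.range.Normal] :
    (pCore p G).map f ≤ pCore p G' := by
  rw [← f.subtype_comp_rangeRestrict, ← Subgroup.map_map]
  exact (map_mono (H22.map_pCore_le_of_surjective _ f.rangeRestrict_surjective)).trans
    ((H22.map_pCore_of_normal _).le.trans inf_le_left)

omit hp in
theorem ups_le_comap (f : G →* G') [hf : f.range.Normal] (n : ℕ) :
    (upperPSeries p G n).1 ≤ (upperPSeries p G' n).1.comap f := by
  induction n with
  | zero => simp [H22.upperPSeries_zero]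
  | succ n ih =>
    let φ := QuotientGroup.map _ _ f ih
    haveI : φ.range.Normal := by
      have : φ.range = f.range.map (QuotientGroup.mk' _) := by
        ext y
        constructor
        · rintro ⟨x, rfl⟩
          obtain ⟨x, rfl⟩ := QuotientGroup.mk_surjective x
          exact ⟨f x, ⟨x, rfl⟩, rfl⟩
        · rintro ⟨_, ⟨x, rfl⟩, rfl⟩
          exact ⟨x, rfl⟩
      rw [this]; exact hf.map _ (QuotientGroup.mk'_surjective _)
    intro x hx
    by_cases he : Even n
    · rw [H22.upperPSeries_succ_of_even he] at hx ⊢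
      exact map_pPrimeCore_le_of_normal φ ⟨_, hx, rfl⟩
    · rw [H22.upperPSeries_succ_of_odd he] at hx ⊢
      exact map_pCore_le_of_normal φ ⟨_, hx, rfl⟩

theorem pLength_add (f : G →* G') {a b : ℕ} (ha : PLengthLE p a f.ker) (hb : PLengthLE p b G') :
    PLengthLE p (a + b) G := by
  haveI : f.ker.subtype.range.Normal := by rw [range_subtype]; infer_instance
  have h1 : f.ker ≤ (upperPSeries p G (2 * a + 1)).1 := fun x hx =>
    ups_le_comap f.ker.subtype (2 * a + 1) (ha.ge (mem_top ⟨x, hx⟩))
  have := comap_ups_le (p := p) f (a := 1) (b := 2 * a + 1) (by simp) (by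
    rw [H22.upperPSeries_one, ← QuotientGroup.ker_mk' (upperPSeries p G (2 * a + 1)).1,
      ← Subgroup.map_eq_bot_iff, eq_bot_iff, ← H22.pPrimeCore_quotient_upperPSeries_odd (p := p) a]
    refine H22.le_pPrimeCore (Normal.map inferInstance _ (QuotientGroup.mk'_surjective _))
      (coprime_card_of_forall ?_)
    rintro _ ⟨x, hx, rfl⟩
    refine ⟨_, H22.coprime_card_pPrimeCore (G := G'), ?_⟩
    rw [← map_pow]
    refine (QuotientGroup.eq_one_iff _).2 (h1 ?_)
    rw [MonoidHom.mem_ker, map_pow]
    exact congrArg Subtype.val (pow_card_eq_one' (x := (⟨_, hx⟩ : pPrimeCore p G')))) (2 * b)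
  rw [add_comm 1, hb, comap_top, top_le_iff] at this
  rwa [PLengthLE, mul_add, add_right_comm]

theorem pLength_one_of_pgroup (h : IsPGroup p G) : PLengthLE p 1 G :=
  H22.pLengthLE_of_sylow_le default 1 (by
    rw [mul_one, H22.upperPSeries_two]
    exact le_top.trans ((H22.pCore_eq_top_of_isPGroup h).ge.trans H22.pCore_le_pPrimePCore))

theorem pLength_quo_pPrimePCore {k : ℕ} (h : PLengthLE p (k + 1) G) :
    PLengthLE p k (G ⧸ pPrimePCore p G) :=
  pLength_of_surjective' _ (QuotientGroup.mk'_surjective _) (j := 1)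
    (by rw [mul_one, H22.upperPSeries_two, QuotientGroup.ker_mk']) (by rwa [add_comm])

omit [Finite G'] in
theorem exists_pgroup_map_eq (f : G →* G') (hf : Function.Surjective f) {P : Subgroup G'}
    (hP : IsPGroup p P) : ∃ S : Subgroup G, IsPGroup p S ∧ P ≤ S.map f := by
  haveI := Finite.of_surjective f hf
  obtain ⟨S, hS⟩ := hP.exists_le_sylow
  obtain ⟨T, rfl⟩ := Sylow.mapSurjective_surjective hf p S
  exact ⟨T, T.2, hS⟩

end Cfsg.Agent.H79
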